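import Cfsg.Agent.H28.RG.Form
import Cfsg.Prelude.Def_EvenType

/-!
# S3509, exceptional groups: the group generated by the positive and the negative fixed unipotent elements of a centraliser is
normal in the fixed points of the centraliser (helper441)

The frame of `H28/RG/Form.lean`: `H : Tow cs h p T n X`, coordinates `C`, `t ∈ TL T`, a frame automorphism `α` over `θ` fixing `t`
such that `θ` preserves the positive roots of `Sx t`.

* `PP0 = Up ∩ Fix α`, `QQ0 = Un ∩ Fix α`, `KK0 = ⟨PP0, QQ0⟩`;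
* `conj_PP0`, `conj_QQ0` : `k PP0 k⁻¹, k QQ0 k⁻¹ ≤ KK0` for `k` over `w` commuting with `t` and fixed by `α`;
* `conj_KK0` : every `c` fixed by `α` and commuting with `t` normalises `KK0`.
-/

set_option autoImplicit false
set_option linter.unusedSectionVars false

namespace Cfsg.Agent.H441.RG

open CoxeterSystem Cfsg.Agent.ChevalleyStructure.CoxeterGeom Cfsg.Agent.Tits.Roots Cfsg.Agent.Tits.Core
  Cfsg.Agent.Tits.RootComb Cfsg.Agent.Tits.Exchange Cfsg.Agent.Nodes.Reps Cfsg.Agent.Nodes.BNOf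
  Cfsg.Agent.Nodes.StabComb Cfsg.Agent.Nodes.Bruhat Cfsg.Agent.Nodes.OppDec Cfsg.Agent.Nodes.LeviDec
  Cfsg.Agent.Nodes.NormalForm Cfsg.Agent.Nodes.SubComb Cfsg.Agent.KFacts.RgdField
  Cfsg.Agent.BpExc.TorCent Cfsg.Agent.BpExc.Tow Cfsg.Agent.BpExc.Fr Cfsg.Agent.H28.RG

/-! ### abstract part -/

section Abs

variable {Y : Type*} [Group Y]

/-- the factors of a fixed element are fixed -/
theorem fix_dec {α : MulAut Y} {UP UN : Subgroup Y} (hI : ∀ x ∈ UP, x ∈ UN → x = 1) (hP : ∀ x ∈ UP, α x ∈ UP)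
    (hN : ∀ x ∈ UN, α x ∈ UN) {k b c : Y} (hk : α k = k) (hkb : k * b * k⁻¹ ∈ UP) (hkc : k * c * k⁻¹ ∈ UN)
    (hv : α (b * c) = b * c) : α b = b ∧ α c = c := by
  have h1 : k * α b * k⁻¹ ∈ UP := by
    have := hP _ hkb
    rwa [map_mul, map_mul, map_inv, hk] at this
  have h2 : k * α c * k⁻¹ ∈ UN := by
    have := hN _ hkc
    rwa [map_mul, map_mul, map_inv, hk] at this
  have e : (α b)⁻¹ * b = α c * c⁻¹ := by
    rw [map_mul] at hv
    rw [inv_mul_eq_iff_eq_mul, ← mul_assoc, hv, mul_inv_cancel_right]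
  have h3 : k * ((α b)⁻¹ * b) * k⁻¹ ∈ UP := by
    have e3 : k * ((α b)⁻¹ * b) * k⁻¹ = (k * α b * k⁻¹)⁻¹ * (k * b * k⁻¹) := by group
    rw [e3]
    exact mul_mem (inv_mem h1) hkb
  have h4 : k * ((α b)⁻¹ * b) * k⁻¹ ∈ UN := by
    have e4 : k * (α c * c⁻¹) * k⁻¹ = (k * α c * k⁻¹) * (k * c * k⁻¹)⁻¹ := by group
    rw [e, e4]
    exact mul_mem h2 (inv_mem hkc)
  have h5 := hI _ h3 h4
  have h6 : (α b)⁻¹ * b = 1 := by
    have e6 : (α b)⁻¹ * b = k⁻¹ * (k * ((α b)⁻¹ * b) * k⁻¹) * k := by group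
    rw [e6, h5]; group
  refine ⟨(inv_mul_eq_one.1 h6), ?_⟩
  rw [e] at h6
  exact mul_inv_eq_one.1 h6

end Abs

section Lim

variable {I W Y : Type*} [Fintype I] [DecidableEq I] [Group W] [Finite W] [Group Y] {M : CoxeterMatrix I}
  {cs : CoxeterSystem M W} {A : I → I → ℤ} {h : IsCartan M A} {p : ℕ}
  {J : Type*} [Preorder J] {T : J → Subgroup Y} {n : I → Y} {X : J → (I → ℤ) → Subgroup Y}
  (H : Tow cs h p T n X)

include H

/-- an element of `U` is a product of an element staying in `U` under `k` and one moved into `U⁻` -/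
theorem dec_pos {w : W} {k v : Y} (hk : Rp cs H.nsys w k) (hv : v ∈ RGD.Sup (XL X) (RGD.Pos cs h)) :
    ∃ b ∈ RGD.Sup (XL X) (RGD.Pos cs h), ∃ c ∈ RGD.Sup (XL X) (RGD.Pos cs h), v = b * c ∧
      k * b * k⁻¹ ∈ RGD.Sup (XL X) (RGD.Pos cs h) ∧ k * c * k⁻¹ ∈ RGD.Sup (XL X) (Neg cs h) := by
  obtain ⟨j, hj⟩ := H.mem_Sup.1 hv
  obtain ⟨b, hb, c, hc, rfl⟩ := exists_PW_NW (H.rgd j) w hj
  have hb' := Sup_le_SupL (X := X) j _ hb
  have hc' := Sup_le_SupL (X := X) j _ hc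
  exact ⟨b, RGD.Sup_mono (S := PW cs h w) (S' := RGD.Pos cs h) (fun x hx => ⟨hx.1, hx.2.1⟩) hb', c,
    RGD.Sup_mono (S := NW cs h w) (S' := RGD.Pos cs h) (fun x hx => ⟨hx.1, hx.2.1⟩) hc', rfl,
    conj_SupL H hk (S' := RGD.Pos cs h) (fun x hx => hx.1) (fun x hx => ⟨hx.1.act w, hx.2.2⟩) hb',
    conj_SupL H hk (S' := Neg cs h) (fun x hx => hx.1) (fun x hx => ⟨hx.1.act w, hx.2.2⟩) hc'⟩

/-- an element of `U⁻` is a product of an element moved into `U` by `k` and one staying in `U⁻` -/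
theorem dec_neg {w : W} {k v : Y} (hk : Rp cs H.nsys w k) (hv : v ∈ RGD.Sup (XL X) (Neg cs h)) :
    ∃ b ∈ RGD.Sup (XL X) (Neg cs h), ∃ c ∈ RGD.Sup (XL X) (Neg cs h), v = b * c ∧
      k * b * k⁻¹ ∈ RGD.Sup (XL X) (RGD.Pos cs h) ∧ k * c * k⁻¹ ∈ RGD.Sup (XL X) (Neg cs h) := by
  obtain ⟨w0, hw0⟩ := Cfsg.Agent.Nodes.Sys.exists_longest cs h
  obtain ⟨k0, -, hk0⟩ := H.exists_rp w0⁻¹
  have hneg : ∀ x, IsRoot cs h x → x ≤ 0 → 0 ≤ rep cs h w0⁻¹ x := by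
    intro x hx h0
    have h1 := hw0 (-x) hx.neg (neg_nonneg.2 h0)
    rwa [map_neg, neg_nonpos] at h1
  have hback : ∀ x, IsRoot cs h x → 0 ≤ x → rep cs h w0 x ≤ 0 := by
    intro x hx h0
    rcases (hx.act w0).pos_or_neg with h1 | h1
    · exfalso
      have h2 := hw0 _ (hx.act w0) h1
      rw [← rep_mul_apply, inv_mul_cancel, map_one, Module.End.one_apply] at h2
      exact hx.not_pos_neg h0 h2
    · exact h1
  have h1 : k0 * v * k0⁻¹ ∈ RGD.Sup (XL X) (RGD.Pos cs h) :=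
    conj_SupL H hk0 (S' := RGD.Pos cs h) (fun x hx => hx.1) (fun x hx => ⟨hx.1.act _, hneg x hx.1 hx.2⟩) hv
  have hk1 : Rp cs H.nsys (w * w0⁻¹⁻¹) (k * k0⁻¹) := hk.mul hk0.inv
  have hkb : ∀ x ∈ RGD.Sup (XL X) (RGD.Pos cs h), k0⁻¹ * x * k0 ∈ RGD.Sup (XL X) (Neg cs h) := by
    intro x hx
    have h2 := conj_SupL H hk0.inv (S := RGD.Pos cs h) (S' := Neg cs h) (fun x hx => hx.1)
      (fun x hx => by rw [inv_inv]; exact ⟨hx.1.act _, hback x hx.1 hx.2⟩) hx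
    rwa [inv_inv] at h2
  obtain ⟨b, hb, c, hc, e, h3, h4⟩ := dec_pos H hk1 h1
  refine ⟨k0⁻¹ * b * k0, hkb b hb, k0⁻¹ * c * k0, hkb c hc, ?_, ?_, ?_⟩
  · have e1 : k0⁻¹ * b * k0 * (k0⁻¹ * c * k0) = k0⁻¹ * (b * c) * k0 := by group
    rw [e1, ← e]; group
  · have e1 : k * (k0⁻¹ * b * k0) * k⁻¹ = k * k0⁻¹ * b * (k * k0⁻¹)⁻¹ := by group
    rw [e1]; exact h3
  · have e1 : k * (k0⁻¹ * c * k0) * k⁻¹ = k * k0⁻¹ * c * (k * k0⁻¹)⁻¹ := by group
    rw [e1]; exact h4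

end Lim

section Cent

variable {I W Y : Type*} [Fintype I] [DecidableEq I] [Group W] [Finite W] [Group Y] {M : CoxeterMatrix I}
  {cs : CoxeterSystem M W} {A : I → I → ℤ} {h : IsCartan M A} {p : ℕ}
  {J : Type*} [Preorder J] {T : J → Subgroup Y} {n : I → Y} {X : J → (I → ℤ) → Subgroup Y}
  {F : Type*} [Field F] {xx : (I → ℤ) → F → Y} {χ : (I → ℤ) → Y → F}

/-- the fixed points of `α` in `Up` -/
def PP0 (cs : CoxeterSystem M W) (h : IsCartan M A) (X : J → (I → ℤ) → Subgroup Y) (χ : (I → ℤ) → Y → F) (α : MulAut Y)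
    (t : Y) : Subgroup Y := Up cs h X χ t ⊓ Cfsg.fixedSubgroup α

/-- the fixed points of `α` in `Un` -/
def QQ0 (cs : CoxeterSystem M W) (h : IsCartan M A) (X : J → (I → ℤ) → Subgroup Y) (χ : (I → ℤ) → Y → F) (α : MulAut Y)
    (t : Y) : Subgroup Y := Un cs h X χ t ⊓ Cfsg.fixedSubgroup α

/-- the group generated by the fixed points of `α` in `Up` and `Un` -/
def KK0 (cs : CoxeterSystem M W) (h : IsCartan M A) (X : J → (I → ℤ) → Subgroup Y) (χ : (I → ℤ) → Y → F) (α : MulAut Y)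
    (t : Y) : Subgroup Y := PP0 cs h X χ α t ⊔ QQ0 cs h X χ α t

variable (H : Tow cs h p T n X) (C : Coords cs h (TL T) n (XL X) xx χ)

/-- membership in `Fix α` -/
theorem mem_fixedSubgroup {α : MulAut Y} {x : Y} : x ∈ Cfsg.fixedSubgroup α ↔ α x = x := Iff.rfl

theorem mem_PP0 {α : MulAut Y} {t x : Y} : x ∈ PP0 cs h X χ α t ↔ x ∈ Up cs h X χ t ∧ α x = x := Iff.rfl

theorem mem_QQ0 {α : MulAut Y} {t x : Y} : x ∈ QQ0 cs h X χ α t ↔ x ∈ Un cs h X χ t ∧ α x = x := Iff.rfl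

include C in
/-- the elements of `Up` commute with `t` -/
theorem comm_Up {t : Y} (ht : t ∈ TL T) {u : Y} (hu : u ∈ Up cs h X χ t) : u * t = t * u := by
  have h1 : Up cs h X χ t ≤ Subgroup.centralizer {t} :=
    RGD.Sup_le fun a ha => X_le_centralizer C ht ha.1
  exact Subgroup.mem_centralizer_singleton_iff.1 (h1 hu)

include C in
/-- the elements of `Un` commute with `t` -/
theorem comm_Un {t : Y} (ht : t ∈ TL T) {u : Y} (hu : u ∈ Un cs h X χ t) : u * t = t * u := by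
  have h1 : Un cs h X χ t ≤ Subgroup.centralizer {t} :=
    RGD.Sup_le fun a ha => X_le_centralizer C ht ha.1
  exact Subgroup.mem_centralizer_singleton_iff.1 (h1 hu)

include H in
/-- the factors commute with `t` -/
theorem dec_comm {t : Y} (ht : t ∈ TL T) {k b c : Y} (hkt : k * t = t * k)
    (hkb : k * b * k⁻¹ ∈ RGD.Sup (XL X) (RGD.Pos cs h)) (hkc : k * c * k⁻¹ ∈ RGD.Sup (XL X) (Neg cs h))
    (hv : b * c * t = t * (b * c)) : b * t = t * b ∧ c * t = t * c := by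
  have h1 := fix_dec (α := MulAut.conj t) (UP := RGD.Sup (XL X) (RGD.Pos cs h)) (UN := RGD.Sup (XL X) (Neg cs h))
    (k := k) (b := b) (c := c) (fun x => eq_one_of_pos_neg H)
    (fun x hx => (Subgroup.mem_normalizer_iff.1 (H.T_le_normalizer (S := RGD.Pos cs h) (fun x hx => hx.1) ht) x).1 hx)
    (fun x hx => (Subgroup.mem_normalizer_iff.1 (H.T_le_normalizer (S := Neg cs h) (fun x hx => hx.1) ht) x).1 hx)
    (by rw [MulAut.conj_apply, ← hkt]; group) hkb hkc (by rw [MulAut.conj_apply, ← hv]; group)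
  rw [MulAut.conj_apply, MulAut.conj_apply] at h1
  exact ⟨(mul_inv_eq_iff_eq_mul.1 h1.1).symm, (mul_inv_eq_iff_eq_mul.1 h1.2).symm⟩

/-- conjugates of commuting elements commute -/
theorem comm_conj {t k b : Y} (hkt : k * t = t * k) (hb : b * t = t * b) : k * b * k⁻¹ * t = t * (k * b * k⁻¹) := by
  have e : k⁻¹ * t * k = t := by rw [mul_assoc, ← hkt]; group
  calc k * b * k⁻¹ * t = k * b * (k⁻¹ * t * k) * k⁻¹ := by group
    _ = k * (b * t) * k⁻¹ := by rw [e]; group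
    _ = k * t * b * k⁻¹ := by rw [hb]; group
    _ = t * (k * b * k⁻¹) := by rw [hkt]; group

include H C in
/-- the decomposition of an element of `Up` -/
theorem dec_Up {t : Y} (ht : t ∈ TL T) {w : W} {k v : Y} (hk : Rp cs H.nsys w k) (hkt : k * t = t * k)
    (hv : v ∈ Up cs h X χ t) : ∃ b ∈ Up cs h X χ t, ∃ c ∈ Up cs h X χ t, v = b * c ∧
      k * b * k⁻¹ ∈ Up cs h X χ t ∧ k * c * k⁻¹ ∈ Un cs h X χ t := by
  obtain ⟨b, hb, c, hc, e, h1, h2⟩ := dec_pos H hk (Up_le hv)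
  obtain ⟨h3, h4⟩ := dec_comm H ht hkt h1 h2 (by rw [← e]; exact comm_Up C ht hv)
  exact ⟨b, mem_Up H C ht hb h3, c, mem_Up H C ht hc h4, e, mem_Up H C ht h1 (comm_conj hkt h3),
    mem_Un H C ht h2 (comm_conj hkt h4)⟩

include H C in
/-- the decomposition of an element of `Un` -/
theorem dec_Un {t : Y} (ht : t ∈ TL T) {w : W} {k v : Y} (hk : Rp cs H.nsys w k) (hkt : k * t = t * k)
    (hv : v ∈ Un cs h X χ t) : ∃ b ∈ Un cs h X χ t, ∃ c ∈ Un cs h X χ t, v = b * c ∧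
      k * b * k⁻¹ ∈ Up cs h X χ t ∧ k * c * k⁻¹ ∈ Un cs h X χ t := by
  obtain ⟨b, hb, c, hc, e, h1, h2⟩ := dec_neg H hk (Un_le hv)
  obtain ⟨h3, h4⟩ := dec_comm H ht hkt h1 h2 (by rw [← e]; exact comm_Un C ht hv)
  exact ⟨b, mem_Un H C ht hb h3, c, mem_Un H C ht hc h4, e, mem_Up H C ht h1 (comm_conj hkt h3),
    mem_Un H C ht h2 (comm_conj hkt h4)⟩

/-! ### the frame automorphism -/

variable {α : MulAut Y} {θ : (I → ℤ) ≃+ (I → ℤ)} (Fα : Fr cs h (TL T) (XL X) α θ)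

include H C Fα

theorem dec_PP0 (hA : ChAdd cs h (TL T) χ) {t : Y} (ht : t ∈ TL T) (hα : α t = t)
    (hpos : ∀ a ∈ Sx cs h χ t, 0 ≤ a → 0 ≤ θ a) {w : W} {k v : Y} (hk : Rp cs H.nsys w k) (hkt : k * t = t * k)
    (hαk : α k = k) (hv : v ∈ PP0 cs h X χ α t) : ∃ b ∈ PP0 cs h X χ α t, ∃ c ∈ PP0 cs h X χ α t, v = b * c ∧
      k * b * k⁻¹ ∈ PP0 cs h X χ α t ∧ k * c * k⁻¹ ∈ QQ0 cs h X χ α t := by
  obtain ⟨b, hb, c, hc, e, h1, h2⟩ := dec_Up H C ht hk hkt hv.1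
  obtain ⟨h3, h4⟩ := fix_dec (α := α) (UP := Up cs h X χ t) (UN := Un cs h X χ t)
    (fun x hx hx' => eq_one_of_pos_neg H (Up_le hx) (Un_le hx')) (fun x => alpha_Up C Fα ht hα hpos)
    (fun x => alpha_Un C Fα ht hα hpos hA) hαk h1 h2 (by rw [← e]; exact hv.2)
  have h5 : α (k * b * k⁻¹) = k * b * k⁻¹ := by rw [map_mul, map_mul, map_inv, hαk, h3]
  have h6 : α (k * c * k⁻¹) = k * c * k⁻¹ := by rw [map_mul, map_mul, map_inv, hαk, h4]
  exact ⟨b, ⟨hb, h3⟩, c, ⟨hc, h4⟩, e, ⟨h1, h5⟩, ⟨h2, h6⟩⟩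

theorem dec_QQ0 (hA : ChAdd cs h (TL T) χ) {t : Y} (ht : t ∈ TL T) (hα : α t = t)
    (hpos : ∀ a ∈ Sx cs h χ t, 0 ≤ a → 0 ≤ θ a) {w : W} {k v : Y} (hk : Rp cs H.nsys w k) (hkt : k * t = t * k)
    (hαk : α k = k) (hv : v ∈ QQ0 cs h X χ α t) : ∃ b ∈ QQ0 cs h X χ α t, ∃ c ∈ QQ0 cs h X χ α t, v = b * c ∧
      k * b * k⁻¹ ∈ PP0 cs h X χ α t ∧ k * c * k⁻¹ ∈ QQ0 cs h X χ α t := by
  obtain ⟨b, hb, c, hc, e, h1, h2⟩ := dec_Un H C ht hk hkt hv.1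
  obtain ⟨h3, h4⟩ := fix_dec (α := α) (UP := Up cs h X χ t) (UN := Un cs h X χ t)
    (fun x hx hx' => eq_one_of_pos_neg H (Up_le hx) (Un_le hx')) (fun x => alpha_Up C Fα ht hα hpos)
    (fun x => alpha_Un C Fα ht hα hpos hA) hαk h1 h2 (by rw [← e]; exact hv.2)
  have h5 : α (k * b * k⁻¹) = k * b * k⁻¹ := by rw [map_mul, map_mul, map_inv, hαk, h3]
  have h6 : α (k * c * k⁻¹) = k * c * k⁻¹ := by rw [map_mul, map_mul, map_inv, hαk, h4]
  exact ⟨b, ⟨hb, h3⟩, c, ⟨hc, h4⟩, e, ⟨h1, h5⟩, ⟨h2, h6⟩⟩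

/-- `k` over `w`, commuting with `t` and fixed by `α`, normalises `KK0` -/
theorem conj_KK0_rp (hA : ChAdd cs h (TL T) χ) {t : Y} (ht : t ∈ TL T) (hα : α t = t)
    (hpos : ∀ a ∈ Sx cs h χ t, 0 ≤ a → 0 ≤ θ a) {w : W} {k : Y} (hk : Rp cs H.nsys w k) (hkt : k * t = t * k)
    (hαk : α k = k) {x : Y} (hx : x ∈ KK0 cs h X χ α t) : k * x * k⁻¹ ∈ KK0 cs h X χ α t := by
  have h1 : KK0 cs h X χ α t ≤ (KK0 cs h X χ α t).comap (MulAut.conj k).toMonoidHom := by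
    refine sup_le (fun v hv => ?_) (fun v hv => ?_)
    · obtain ⟨b, -, c, -, e, h1, h2⟩ := dec_PP0 H C Fα hA ht hα hpos hk hkt hαk hv
      have e1 : k * v * k⁻¹ = (k * b * k⁻¹) * (k * c * k⁻¹) := by rw [e]; group
      have h3 : k * v * k⁻¹ ∈ KK0 cs h X χ α t := by
        rw [e1]
        exact mul_mem (Subgroup.mem_sup_left h1) (Subgroup.mem_sup_right h2)
      exact h3
    · obtain ⟨b, -, c, -, e, h1, h2⟩ := dec_QQ0 H C Fα hA ht hα hpos hk hkt hαk hv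
      have e1 : k * v * k⁻¹ = (k * b * k⁻¹) * (k * c * k⁻¹) := by rw [e]; group
      have h3 : k * v * k⁻¹ ∈ KK0 cs h X χ α t := by
        rw [e1]
        exact mul_mem (Subgroup.mem_sup_left h1) (Subgroup.mem_sup_right h2)
      exact h3
  exact h1 hx

/-- **Every element fixed by `α` and commuting with `t` normalises `KK0`.** -/
theorem conj_KK0 (hG : GG cs h (TL T) (XL X) = ⊤)
    (hsep : ∀ a, IsRoot cs h a → ∃ s ∈ TL T, ∀ u ∈ XL X a, u * s = s * u → u = 1) (hA : ChAdd cs h (TL T) χ)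
    {t : Y} (ht : t ∈ TL T) (hα : α t = t) (hpos : ∀ a ∈ Sx cs h χ t, 0 ≤ a → 0 ≤ θ a)
    {c : Y} (hc : c * t = t * c) (hαc : α c = c) {x : Y} (hx : x ∈ KK0 cs h X χ α t) :
    c * x * c⁻¹ ∈ KK0 cs h X χ α t := by
  obtain ⟨w, u, hu, hαu, k, hk, hkt, hαk, v, hv, hαv, -, rfl⟩ := form_fix H C Fα hG hsep hA ht hα hpos hc hαc
  have hu' : u ∈ KK0 cs h X χ α t := Subgroup.mem_sup_left ⟨hu, hαu⟩
  have hv' : v ∈ KK0 cs h X χ α t := Subgroup.mem_sup_left ⟨hv, hαv⟩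
  have e : u * k * v * x * (u * k * v)⁻¹ = u * (k * (v * x * v⁻¹) * k⁻¹) * u⁻¹ := by group
  rw [e]
  exact mul_mem (mul_mem hu' (conj_KK0_rp H C Fα hA ht hα hpos hk hkt hαk
    (mul_mem (mul_mem hv' hx) (inv_mem hv')))) (inv_mem hu')

end Cent

end Cfsg.Agent.H441.RG
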