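import Cfsg.Agent.H441.RG.Weak
import Cfsg.Agent.H441.RG.Core
import Cfsg.Agent.H398.RG.Base

/-!
# S3509, exceptional groups: the group `M = ⟨X ^ K⟩` (helper441)

`m : MData hp r q K₀`; `ZForm m α θ t z` : weak frame data `(α, θ, t)` and `z` with `z Y^α z⁻¹ = Y^σ` (from a toral form: `zform`).
`K = KT = ⟨PK, QK, TK⟩`, `X ≤ K`, `M = MK K X`, `zM = z M z⁻¹`:

* `ZForm.le_range` : `z M z⁻¹ ≤ m.ι.range`;
* `ZForm.ne_range` : `z M' z⁻¹ ≠ m.ι.range` for every `M' ≤ fixC α t`, if some root is not in `Sx t`;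
* `ZForm.norm_strong` : the normaliser, if the component group fixes `β`;
* `norm_weakT`, `norm_strongT`, `centT` : the toral form.
-/

set_option autoImplicit false
set_option linter.unusedSectionVars false

namespace Cfsg.Agent.H441.RG

open CoxeterSystem Cfsg Cfsg.Lie Cfsg.Lie.ChevalleyDatum
open Cfsg.Agent.ChevalleyStructure Cfsg.Agent.ChevalleyStructure.Elts Cfsg.Agent.ChevalleyStructure.CoxeterGeom
  Cfsg.Agent.ChevalleyStructure.CoxeterGeomTypes Cfsg.Agent.ChevalleyStructure.NPerm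
open Cfsg.Agent.Tits.Roots Cfsg.Agent.Tits.Core Cfsg.Agent.Nodes Cfsg.Agent.Nodes.Reps Cfsg.Agent.Nodes.BNOf
  Cfsg.Agent.Nodes.RGDChev Cfsg.Agent.Nodes.Bruhat Cfsg.Agent.Nodes.NormalForm Cfsg.Agent.Nodes.OppDec
open Cfsg.Agent.KFacts.RgdField Cfsg.Agent.KFacts.RgdChevCoord
open Cfsg.Agent.BpExc Cfsg.Agent.BpExc.TorCent Cfsg.Agent.BpExc.TorChev Cfsg.Agent.BpExc.Tow
  Cfsg.Agent.BpExc.TowChev Cfsg.Agent.BpExc.Fr Cfsg.Agent.BpExc.Pair Cfsg.Agent.BpExc.LangFr Cfsg.Agent.GpExc.Field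
  Cfsg.Agent.BpExc.NChev
open Cfsg.Agent.H28.RG Cfsg.Agent.H169.RG Cfsg.Agent.H469.Exc Cfsg.Agent.H316.U6
open Cfsg.Agent.H398.RG (MK MK_le MK_le_self conj_MK le_normalizer_MK)

universe u v

section

variable {G : Type*} [Group G]

theorem mem_normalizer_map {z c : G} {N : Subgroup G} (h : z⁻¹ * c * z ∈ Subgroup.normalizer (N : Set G)) :
    c ∈ Subgroup.normalizer ((N.map (MulAut.conj z).toMonoidHom : Subgroup G) : Set G) := by
  have hm : ∀ x, x ∈ N.map (MulAut.conj z).toMonoidHom ↔ z⁻¹ * x * z ∈ N := by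
    intro x
    constructor
    · rintro ⟨y, hy, rfl⟩
      have e : z⁻¹ * ((MulAut.conj z).toMonoidHom y) * z = y := by
        change z⁻¹ * (z * y * z⁻¹) * z = y
        group
      rw [e]
      exact hy
    · intro h1
      refine ⟨_, h1, ?_⟩
      change z * (z⁻¹ * x * z) * z⁻¹ = x
      group
  rw [Subgroup.mem_normalizer_iff] at h ⊢
  intro x
  rw [hm, hm, h]
  have e : z⁻¹ * c * z * (z⁻¹ * x * z) * (z⁻¹ * c * z)⁻¹ = z⁻¹ * (c * x * c⁻¹) * z := by group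
  rw [e]

/-- an element normalising `K` and `X` normalises `⟨X ^ K⟩` -/
theorem mem_normalizer_MK {K X : Subgroup G} {y : G} (hK : ∀ k, k ∈ K ↔ y * k * y⁻¹ ∈ K)
    (hX : ∀ x, x ∈ X ↔ y * x * y⁻¹ ∈ X) : y ∈ Subgroup.normalizer (MK K X : Set G) := by
  have key : ∀ y : G, (∀ k ∈ K, y * k * y⁻¹ ∈ K) → (∀ x ∈ X, y * x * y⁻¹ ∈ X) → ∀ n ∈ MK K X, y * n * y⁻¹ ∈ MK K X := by
    intro y hK hX n hn
    have h1 : MK K X ≤ (MK K X).comap (MulAut.conj y).toMonoidHom := by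
      refine MK_le fun k hk x hx => ?_
      change y * (k * x * k⁻¹) * y⁻¹ ∈ MK K X
      have e : y * (k * x * k⁻¹) * y⁻¹ = (y * k * y⁻¹) * (y * x * y⁻¹) * (y * k * y⁻¹)⁻¹ := by group
      rw [e]
      exact Subgroup.subset_closure ⟨_, hK k hk, _, hX x hx, rfl⟩
    exact h1 hn
  rw [Subgroup.mem_normalizer_iff]
  intro n
  refine ⟨key y (fun k hk => (hK k).1 hk) (fun x hx => (hX x).1 hx) n, fun h => ?_⟩
  have h1 := key y⁻¹ (fun k hk => (hK _).2 (by
    have e : y * (y⁻¹ * k * y⁻¹⁻¹) * y⁻¹ = k := by group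
    rwa [e])) (fun x hx => (hX _).2 (by
    have e : y * (y⁻¹ * x * y⁻¹⁻¹) * y⁻¹ = x := by group
    rwa [e])) _ h
  have e : y⁻¹ * (y * n * y⁻¹) * y⁻¹⁻¹ = n := by group
  rwa [e] at h1

end

section

variable {D : ChevalleyDatum} {l : ℕ} {M : CoxeterMatrix (Fin l)} {hp : IsType D l M} {r q : ℕ} [hr : Fact r.Prime]
  {K₀ : Type v} [Group K₀]

/-- The weak form of the data. -/
structure ZForm (m : MData hp r q K₀) (α : MulAut ↥(D.group (KK r))) (θ : (Fin l → ℤ) ≃+ (Fin l → ℤ))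
    (t z : ↥(D.group (KK r))) : Prop where
  d : Wk.DFr hp M.toCoxeterSystem r m.e α θ t
  hz : ∀ y, m.σ (z * y * z⁻¹) = z * y * z⁻¹ ↔ α y = y

/-- `⟨PK, QK, TK⟩` -/
noncomputable def KT (hp : IsType D l M) (α : MulAut ↥(D.group (KK r))) (t : ↥(D.group (KK r))) : Subgroup ↥(D.group (KK r)) :=
  PK hp M.toCoxeterSystem α t ⊔ QK hp M.toCoxeterSystem α t ⊔ TK α

variable {m : MData hp r q K₀} {α : MulAut ↥(D.group (KK r))} {θ : (Fin l → ℤ) ≃+ (Fin l → ℤ)}
  {t z : ↥(D.group (KK r))}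

theorem ZForm.finite (h : ZForm m α θ t z) : Finite ↥(fixC α t) := by
  have := m.fin
  refine Finite.of_injective (fun y : ↥(fixC α t) =>
    (⟨z * y * z⁻¹, (h.hz y).2 (mem_fixC.1 y.2).1⟩ : ↥(fixedSubgroup m.σ))) fun a b hab => ?_
  have h1 : z * (a : ↥(D.group (KK r))) * z⁻¹ = z * b * z⁻¹ := congrArg Subtype.val hab
  exact Subtype.ext (mul_left_cancel (mul_right_cancel h1))

theorem ZForm.KT_le (h : ZForm m α θ t z) : KT hp α t ≤ fixC α t := h.d.KT_le (locFin r)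

theorem ZForm.pCore_KT (h : ZForm m α θ t z) : pCore r ↥(KT hp α t) = ⊥ := by
  have := h.finite
  exact h.d.pCore_KT (locFin r)

/-- `C` normalises `K` -/
theorem ZForm.conj_KT (h : ZForm m α θ t z) {c : ↥(D.group (KK r))} (hc : c ∈ fixC α t) (x : ↥(D.group (KK r))) :
    x ∈ KT hp α t ↔ c * x * c⁻¹ ∈ KT hp α t := by
  have key : ∀ c ∈ fixC α t, ∀ x ∈ KT hp α t, c * x * c⁻¹ ∈ KT hp α t := fun c hc x hx =>
    (h.d.KT_normal (locFin r)).conj_mem ⟨x, h.KT_le hx⟩ hx ⟨c, hc⟩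
  refine ⟨key c hc x, fun h1 => ?_⟩
  have h2 := key c⁻¹ (inv_mem hc) _ h1
  have e : c⁻¹ * (c * x * c⁻¹) * c⁻¹⁻¹ = x := by group
  rwa [e] at h2

/-- **`z M z⁻¹ ≤ m.ι.range`.** -/
theorem ZForm.le_range (h : ZForm m α θ t z) {K X : Subgroup ↥(D.group (KK r))} (hK : ∀ k ∈ K, α k = k)
    (hXK : X ≤ K) (hX : IsPGroup r ↥X) : (MK K X).map (MulAut.conj z).toMonoidHom ≤ m.ι.range := by
  rw [Subgroup.map_le_iff_le_comap]
  refine MK_le fun k hk x hx => ?_
  have h1 : z * (k * x * k⁻¹) * z⁻¹ ∈ m.ι.range := by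
    obtain ⟨n, hn⟩ := pow_of_pgroup hX hx
    refine pmem_pow m ((h.hz _).2 (by rw [map_mul, map_mul, map_inv, hK k hk, hK x (hXK hx)])) (k := n) ?_
    rw [conj_pow, conj_pow, hn]
    group
  exact h1

/-- the order of an `r`-subgroup of `C` -/
theorem ZForm.card_pgroup_le (h : ZForm m α θ t z) {P : Subgroup ↥(D.group (KK r))} (hP : IsPGroup r ↥P)
    (hPC : P ≤ fixC α t) : Nat.card ↥P ≤ (r ^ m.e) ^ (SP M.toCoxeterSystem hp.isCartan (ch hp) t).ncard := by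
  have := finite_W hp M.toCoxeterSystem
  have := h.finite
  obtain ⟨S, hS⟩ := h.d.sylP (locFin r)
  have h1 : IsPGroup r ↥(P.subgroupOf (fixC α t)) := hP.comap_subtype
  obtain ⟨S', hS'⟩ := h1.exists_le_sylow
  have h2 : Nat.card ↥(P.subgroupOf (fixC α t)) ≤ Nat.card ↥(S' : Subgroup ↥(fixC α t)) :=
    Nat.le_of_dvd Nat.card_pos (Subgroup.card_dvd_of_le hS')
  have h3 : Nat.card ↥(S' : Subgroup ↥(fixC α t)) = Nat.card ↥(S : Subgroup ↥(fixC α t)) := by
    rw [S'.card_eq_multiplicity, S.card_eq_multiplicity]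
  rw [h3, hS, Nat.card_congr (Subgroup.subgroupOfEquivOfLe hPC).toEquiv,
    Nat.card_congr (Subgroup.subgroupOfEquivOfLe (h.d.PK_le (locFin r))).toEquiv] at h2
  refine h2.trans (le_of_eq ?_)
  exact H461.E2.Fix.card_fix (hp := hp) (locFin r) r h.d.he h.d.frob h.d.fr
    (fun a ha => ⟨ha.1.1, ha.2⟩) (by
      rintro a ha b hb c hc ⟨i, j, hi, hj, rfl⟩
      refine ⟨⟨hc, ?_⟩, add_nonneg (nsmul_nonneg ha.2 i) (nsmul_nonneg hb.2 j)⟩
      obtain ⟨φ, h0, hadd, hφ⟩ := chAddL (k := KK r) hp M.toCoxeterSystem (locFin r) r t h.d.mem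
      have hm : ∀ (i : ℕ) (x : Fin l → ℤ), φ (i • x) = φ x ^ i := by
        intro i x
        induction i with
        | zero => rw [zero_smul, pow_zero, h0]
        | succ i ih => rw [succ_nsmul, hadd, ih, pow_succ]
      rw [hφ _ hc, hadd, hm, hm, ← hφ a ha.1.1, ← hφ b hb.1.1, ha.1.2, hb.1.2, one_pow, one_pow, one_mul])
    (fun a ha => ⟨(h.d.stab a).2 ha.1, h.d.pos a ha.1 ha.2⟩)

/-- **`z M' z⁻¹ ≠ m.ι.range`.** -/
theorem ZForm.ne_range (h : ZForm m α θ t z) {M' : Subgroup ↥(D.group (KK r))} (hM' : M' ≤ fixC α t)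
    {a : Fin l → ℤ} (ha : IsRoot M.toCoxeterSystem hp.isCartan a)
    (hat : a ∉ Sx M.toCoxeterSystem hp.isCartan (ch hp) t) :
    M'.map (MulAut.conj z).toMonoidHom ≠ m.ι.range := by
  intro heq
  have := finite_W hp M.toCoxeterSystem
  -- the Sylow subgroup of `Y^σ`
  have hfin : (RGD.Pos M.toCoxeterSystem hp.isCartan).Finite :=
    (RGD.finite_roots (cs := M.toCoxeterSystem) (h := hp.isCartan)).subset fun a ha => ha.1
  set P1 : Subgroup ↥(D.group (KK r)) :=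
    RGD.Sup (XX D l (KK r)) (RGD.Pos M.toCoxeterSystem hp.isCartan) ⊓ fixedSubgroup m.σ with hP1
  have hc1 : Nat.card ↥P1 = (r ^ m.e) ^ (RGD.Pos M.toCoxeterSystem hp.isCartan).ncard :=
    H461.E2.Fix.card_fix (hp := hp) (locFin r) r m.he m.frob m.fr (fun a ha => ha) (by
      rintro a ha b hb c hc ⟨i, j, hi, hj, rfl⟩
      exact ⟨hc, add_nonneg (nsmul_nonneg ha.2 i) (nsmul_nonneg hb.2 j)⟩)
      (fun a ha => ⟨(m.fr.root a).2 ha.1, m.pos ha.2⟩)
  have hpow : ∀ u ∈ P1, ∃ n : ℕ, u ^ r ^ n = 1 := fun u hu =>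
    pow_of_Sup (hp := hp) (fun a ha => ha.1) (Or.inl fun a ha => ha.2) hu.1
  have hP1r : P1 ≤ m.ι.range := pgroup_le m (pgroup_of_pow hpow) fun y hy => hy.2
  have hP2 : P1.map (MulAut.conj z⁻¹).toMonoidHom ≤ fixC α t := by
    rintro _ ⟨u, hu, rfl⟩
    have h1 := hP1r hu
    rw [← heq] at h1
    obtain ⟨y, hy, rfl⟩ := h1
    have e : (MulAut.conj z⁻¹).toMonoidHom ((MulAut.conj z).toMonoidHom y) = y := by
      change z⁻¹ * (z * y * z⁻¹) * z⁻¹⁻¹ = y
      group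
    rw [e]
    exact hM' hy
  have h2 := h.card_pgroup_le ((pgroup_of_pow hpow).map (MulAut.conj z⁻¹).toMonoidHom) hP2
  rw [Nat.card_congr (P1.equivMapOfInjective _ (MulAut.conj z⁻¹).injective).toEquiv.symm, hc1] at h2
  -- the numbers of the roots
  have h3 : (SP M.toCoxeterSystem hp.isCartan (ch hp) t).ncard < (RGD.Pos M.toCoxeterSystem hp.isCartan).ncard := by
    refine Set.ncard_lt_ncard ?_ hfin
    refine ⟨fun b hb => ⟨hb.1.1, hb.2⟩, fun hcon => ?_⟩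
    rcases ha.pos_or_neg with h0 | h0
    · exact hat (hcon (show a ∈ RGD.Pos M.toCoxeterSystem hp.isCartan from ⟨ha, h0⟩)).1
    · have h4 : -a ∈ Sx M.toCoxeterSystem hp.isCartan (ch hp) t :=
        (hcon (show -a ∈ RGD.Pos M.toCoxeterSystem hp.isCartan from ⟨ha.neg, neg_nonneg.2 h0⟩)).1
      have h5 := chi_neg (coordsL (k := KK r) hp M.toCoxeterSystem (locFin r) r) h.d.mem
        (chAddL (k := KK r) hp M.toCoxeterSystem (locFin r) r) h4
      rw [neg_neg] at h5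
      exact hat h5
  have h4 : 1 < r ^ m.e := Nat.one_lt_pow m.he.ne' hr.out.one_lt
  exact absurd h2 (not_le.2 (Nat.pow_lt_pow_right h4 h3))

/-- **The normaliser, for elements of `K`.** -/
theorem ZForm.norm_of_mem {K X : Subgroup ↥(D.group (KK r))} {c : ↥(D.group (KK r))} (hc : z⁻¹ * c * z ∈ K) :
    c ∈ Subgroup.normalizer (((MK K X).map (MulAut.conj z).toMonoidHom : Subgroup ↥(D.group (KK r))) :
      Set ↥(D.group (KK r))) := mem_normalizer_map (le_normalizer_MK K X hc)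

/-- **The normaliser, if the component group fixes `β`.** -/
theorem ZForm.norm_strong [Finite M.Group] (h : ZForm m α θ t z) {β : Fin l → ℤ}
    (hβ : IsRoot M.toCoxeterSystem hp.isCartan β)
    (hPP : ∀ w ∈ PP M.toCoxeterSystem hp.isCartan (ch hp) t, rep M.toCoxeterSystem hp.isCartan w β = β)
    {c : ↥(D.group (KK r))} (hc : z⁻¹ * c * z ∈ fixC α t) :
    c ∈ Subgroup.normalizer (((MK (KT hp α t) (XX D l (KK r) β ⊓ fixedSubgroup α)).map
      (MulAut.conj z).toMonoidHom : Subgroup ↥(D.group (KK r))) : Set ↥(D.group (KK r))) := by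
  have := h.finite
  refine mem_normalizer_map ?_
  obtain ⟨κ, hκ, w, hw, y, hyC, hy, e⟩ := h.d.frattiniC (locFin r) hc
  rw [e]
  refine mul_mem (le_normalizer_MK _ _ (Subgroup.mem_sup_left hκ)) (mem_normalizer_MK (h.conj_KT hyC) fun x => ?_)
  have H := tow (k := KK r) hp M.toCoxeterSystem (locFin r) r
  have h1 := H.conj_rp ((rp_iff (locFin r)).2 hy) hβ
  rw [XL_eq hp (locFin r), hPP w hw] at h1
  have hαy := (mem_fixC.1 hyC).1
  have h2 : x ∈ XX D l (KK r) β ↔ y * x * y⁻¹ ∈ XX D l (KK r) β := by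
    constructor
    · intro hx
      rw [← h1]
      exact conj_mem_cj.2 hx
    · intro hx
      rw [← h1] at hx
      exact conj_mem_cj.1 hx
  have h4 : α x = x ↔ α (y * x * y⁻¹) = y * x * y⁻¹ := by
    rw [map_mul, map_mul, map_inv, hαy]
    constructor
    · intro h5
      rw [h5]
    · intro h5
      exact mul_left_cancel (mul_right_cancel h5)
  exact and_congr h2 h4

end

/-! ### the toral form -/

section

variable {D : ChevalleyDatum} {l : ℕ} {M : CoxeterMatrix (Fin l)} {hp : IsType D l M} {r q : ℕ} [hr : Fact r.Prime]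
  {K₀ : Type v} [Group K₀] {m : MData hp r q K₀} {s : ↥(D.group (KK r))} (f : TorForm m s)

include f

theorem zform : ZForm m f.α f.θ f.t f.z where
  d := ⟨m.he, f.frob, f.fr, f.mem, f.stab, f.pos⟩
  hz := f.fix_iff'

theorem mem_fixC_of_comm {c : ↥(D.group (KK r))} (hc : m.σ c = c) (hcs : c * s = s * c) :
    f.z⁻¹ * c * f.z ∈ fixC f.α f.t := mem_fixC.2 ⟨(f.fix_iff c).2 hc, (f.comm_iff c).1 hcs⟩

/-- `s` centralises `z M z⁻¹` -/
theorem centT {M' : Subgroup ↥(D.group (KK r))} (hM' : M' ≤ fixC f.α f.t) {x : ↥(D.group (KK r))}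
    (hx : x ∈ M'.map (MulAut.conj f.z).toMonoidHom) : s * x = x * s := by
  obtain ⟨y, hy, rfl⟩ := hx
  have h1 := (mem_fixC.1 (hM' hy)).2
  have h2 := f.eq
  change s * (f.z * y * f.z⁻¹) = f.z * y * f.z⁻¹ * s
  have e1 : s * (f.z * y * f.z⁻¹) = f.z * (f.z⁻¹ * s * f.z * y) * f.z⁻¹ := by group
  have e2 : f.z * y * f.z⁻¹ * s = f.z * (y * (f.z⁻¹ * s * f.z)) * f.z⁻¹ := by group
  have e3 : f.z⁻¹ * s * f.z = f.t := by
    have e4 : f.z⁻¹ * (f.z * f.t * f.z⁻¹) * f.z = f.t := by group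
    exact (congrArg (fun x => f.z⁻¹ * x * f.z) h2).trans e4
  rw [e1, e2, e3, h1]

/-- the elements of order prime to the order of `s` normalise `z M z⁻¹` -/
theorem norm_weakT (hs : (orderOf s).Coprime r) {X : Subgroup ↥(D.group (KK r))} {c : ↥(D.group (KK r))}
    (hc : m.σ c = c) (hcs : c * s = s * c) (hcop : (orderOf c).Coprime (orderOf s)) :
    c ∈ Subgroup.normalizer (((MK (KT hp f.α f.t) X).map (MulAut.conj f.z).toMonoidHom :
      Subgroup ↥(D.group (KK r))) : Set ↥(D.group (KK r))) := by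
  have := finite_fixC_α f
  refine ZForm.norm_of_mem ?_
  refine (dfr_torForm f hs).mem_of_coprimeC (locFin r) (mem_fixC_of_comm f hc hcs) (m := orderOf c) ?_ ?_
  · rw [f.orderOf_eq]
    exact hcop
  · have h1 : (f.z⁻¹ * c * f.z⁻¹⁻¹) ^ orderOf c = 1 := by
      rw [conj_pow, pow_orderOf_eq_one]
      group
    rwa [inv_inv] at h1

/-- all elements commuting with `s` normalise `z M z⁻¹`, if the component group fixes `β` -/
theorem norm_strongT [Finite M.Group] {β : Fin l → ℤ} (hβ : IsRoot M.toCoxeterSystem hp.isCartan β)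
    (hPP : ∀ w ∈ PP M.toCoxeterSystem hp.isCartan (ch hp) f.t, rep M.toCoxeterSystem hp.isCartan w β = β)
    {c : ↥(D.group (KK r))} (hc : m.σ c = c) (hcs : c * s = s * c) :
    c ∈ Subgroup.normalizer (((MK (KT hp f.α f.t) (XX D l (KK r) β ⊓ fixedSubgroup f.α)).map
      (MulAut.conj f.z).toMonoidHom : Subgroup ↥(D.group (KK r))) : Set ↥(D.group (KK r))) :=
  (zform f).norm_strong hβ hPP (mem_fixC_of_comm f hc hcs)

end

end Cfsg.Agent.H441.RG
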