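import Cfsg.Agent.H441.RG.CentTF

/-!
# S3509, exceptional groups: the weak form of F1, F2, F3 (helper441)

As `NrmK`, `CentK`, `CentS`, `CentTF`, with `hS : ∀ a, θ a ∈ Sx t ↔ a ∈ Sx t` instead of `α t = t`.

* `CDat` (field `hS`), `form_fix`, `KK0_normal`, `frattini`, `mem_of_coprime`, `exists_sylow_P`;
* `DFr` (no condition on the order of `t`): `sylP`, `sylQ`, `pCore_eq_bot`, `KK_normal`, `KT_normal`, `pCore_KT`, `formC`,
  `frattiniC`, `mem_KT_of_PP` (trivial component group: `C = ⟨PK, QK, TK⟩`).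
-/

set_option autoImplicit false
set_option linter.unusedSectionVars false

namespace Cfsg.Agent.H441.RG.Wk

section

open CoxeterSystem Cfsg.Agent.ChevalleyStructure.CoxeterGeom Cfsg.Agent.Tits.Roots Cfsg.Agent.Tits.Core
  Cfsg.Agent.Tits.RootComb Cfsg.Agent.Tits.Exchange Cfsg.Agent.Nodes.Reps Cfsg.Agent.Nodes.BNOf
  Cfsg.Agent.Nodes.StabComb Cfsg.Agent.Nodes.Bruhat Cfsg.Agent.Nodes.OppDec Cfsg.Agent.Nodes.LeviDec
  Cfsg.Agent.Nodes.NormalForm Cfsg.Agent.Nodes.SubComb Cfsg.Agent.KFacts.RgdField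
  Cfsg.Agent.BpExc.TorCent Cfsg.Agent.BpExc.Tow Cfsg.Agent.BpExc.Fr Cfsg.Agent.BpExc.Pair Cfsg.Agent.H28.RG

variable {I W Y : Type*} [Fintype I] [DecidableEq I] [Group W] [Finite W] [Group Y] {M : CoxeterMatrix I}
  {cs : CoxeterSystem M W} {A : I → I → ℤ} {h : IsCartan M A} {p : ℕ}
  {J : Type*} [Preorder J] {T : J → Subgroup Y} {n : I → Y} {X : J → (I → ℤ) → Subgroup Y}
  {F : Type*} [Field F] {xx : (I → ℤ) → F → Y} {χ : (I → ℤ) → Y → F}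
  (H : Tow cs h p T n X) (C : Coords cs h (TL T) n (XL X) xx χ)
  {α : MulAut Y} {θ : (I → ℤ) ≃+ (I → ℤ)} (Fα : Fr cs h (TL T) (XL X) α θ)

/-- the data of this file -/
structure CDat (cs : CoxeterSystem M W) (h : IsCartan M A) (T : J → Subgroup Y) (X : J → (I → ℤ) → Subgroup Y)
    (χ : (I → ℤ) → Y → F) (α : MulAut Y) (θ : (I → ℤ) ≃+ (I → ℤ)) (t : Y) : Prop where
  hG : GG cs h (TL T) (XL X) = ⊤
  hsep : ∀ a, IsRoot cs h a → ∃ s ∈ TL T, ∀ u ∈ XL X a, u * s = s * u → u = 1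
  hA : ChAdd cs h (TL T) χ
  ht : t ∈ TL T
  hS : ∀ a, θ a ∈ Sx cs h χ t ↔ a ∈ Sx cs h χ t
  hpos : ∀ a ∈ Sx cs h χ t, 0 ≤ a → 0 ≤ θ a

section

variable {t : Y}

include Fα

omit H in
theorem alpha_Up (hS : ∀ a, θ a ∈ Sx cs h χ t ↔ a ∈ Sx cs h χ t) (hpos : ∀ a ∈ Sx cs h χ t, 0 ≤ a → 0 ≤ θ a) {u : Y}
    (hu : u ∈ Up cs h X χ t) : α u ∈ Up cs h X χ t := by
  have h1 : Up cs h X χ t ≤ (Up cs h X χ t).comap α.toMonoidHom := by
    refine RGD.Sup_le fun a ha => ?_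
    intro y hy
    exact RGD.le_Sup (S := SP cs h χ t) ⟨(hS a).2 ha.1, hpos a ha.1 ha.2⟩ ((Fα.map a ha.1.1 y).2 hy)
  exact h1 hu

include C in
omit H in
theorem alpha_Un (ht : t ∈ TL T) (hS : ∀ a, θ a ∈ Sx cs h χ t ↔ a ∈ Sx cs h χ t)
    (hpos : ∀ a ∈ Sx cs h χ t, 0 ≤ a → 0 ≤ θ a) (hA : ChAdd cs h (TL T) χ) {u : Y} (hu : u ∈ Un cs h X χ t) :
    α u ∈ Un cs h X χ t := by
  have h1 : Un cs h X χ t ≤ (Un cs h X χ t).comap α.toMonoidHom := by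
    refine RGD.Sup_le fun a ha => ?_
    intro y hy
    exact RGD.le_Sup (S := SN cs h χ t) ⟨(hS a).2 ha.1, theta_neg C ht hpos hA ha.1 ha.2⟩
      ((Fα.map a ha.1.1 y).2 hy)
  exact h1 hu

end

include H C Fα

/-- **The form of the elements of the centraliser fixed by `α`.** -/
theorem form_fix (hG : GG cs h (TL T) (XL X) = ⊤)
    (hsep : ∀ a, IsRoot cs h a → ∃ s ∈ TL T, ∀ u ∈ XL X a, u * s = s * u → u = 1) (hA : ChAdd cs h (TL T) χ)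
    {t : Y} (ht : t ∈ TL T) (hS : ∀ a, θ a ∈ Sx cs h χ t ↔ a ∈ Sx cs h χ t)
    (hpos : ∀ a ∈ Sx cs h χ t, 0 ≤ a → 0 ≤ θ a) {c : Y} (hc : c * t = t * c) (hαc : α c = c) :
    ∃ w, ∃ u ∈ Up cs h X χ t, α u = u ∧ ∃ k, Rp cs H.nsys w k ∧ k * t = t * k ∧ α k = k ∧
      ∃ v ∈ Up cs h X χ t, α v = v ∧ k * v * k⁻¹ ∈ Un cs h X χ t ∧ c = u * k * v := by
  obtain ⟨w, u, hu, k, hk, hkt, v, hv, hkv, rfl⟩ := form H C hG ht hc
  obtain ⟨w', hk'⟩ := Cfsg.Agent.BpExc.NChev.rp_fr H hG hsep Fα hk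
  have hkv' : α k * α v * (α k)⁻¹ ∈ Un cs h X χ t := by
    rw [← map_mul, ← map_inv, ← map_mul]
    exact alpha_Un C Fα ht hS hpos hA hkv
  obtain ⟨-, h1, h2, h3⟩ := form_unique H (Up_le (alpha_Up Fα hS hpos hu)) (Up_le hu) hk' hk
    (Up_le (alpha_Up Fα hS hpos hv)) (Un_le hkv') (Up_le hv) (Un_le hkv) (by
      rw [← map_mul, ← map_mul, hαc])
  exact ⟨w, u, hu, h1, k, hk, hkt, h2, v, hv, h3, hkv, rfl⟩

theorem dec_PP0 (hA : ChAdd cs h (TL T) χ) {t : Y} (ht : t ∈ TL T) (hS : ∀ a, θ a ∈ Sx cs h χ t ↔ a ∈ Sx cs h χ t)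
    (hpos : ∀ a ∈ Sx cs h χ t, 0 ≤ a → 0 ≤ θ a) {w : W} {k v : Y} (hk : Rp cs H.nsys w k) (hkt : k * t = t * k)
    (hαk : α k = k) (hv : v ∈ PP0 cs h X χ α t) : ∃ b ∈ PP0 cs h X χ α t, ∃ c ∈ PP0 cs h X χ α t, v = b * c ∧
      k * b * k⁻¹ ∈ PP0 cs h X χ α t ∧ k * c * k⁻¹ ∈ QQ0 cs h X χ α t := by
  obtain ⟨b, hb, c, hc, e, h1, h2⟩ := dec_Up H C ht hk hkt hv.1
  obtain ⟨h3, h4⟩ := fix_dec (α := α) (UP := Up cs h X χ t) (UN := Un cs h X χ t)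
    (fun x hx hx' => eq_one_of_pos_neg H (Up_le hx) (Un_le hx')) (fun x => alpha_Up Fα hS hpos)
    (fun x => alpha_Un C Fα ht hS hpos hA) hαk h1 h2 (by rw [← e]; exact hv.2)
  have h5 : α (k * b * k⁻¹) = k * b * k⁻¹ := by rw [map_mul, map_mul, map_inv, hαk, h3]
  have h6 : α (k * c * k⁻¹) = k * c * k⁻¹ := by rw [map_mul, map_mul, map_inv, hαk, h4]
  exact ⟨b, ⟨hb, h3⟩, c, ⟨hc, h4⟩, e, ⟨h1, h5⟩, ⟨h2, h6⟩⟩

theorem dec_QQ0 (hA : ChAdd cs h (TL T) χ) {t : Y} (ht : t ∈ TL T) (hS : ∀ a, θ a ∈ Sx cs h χ t ↔ a ∈ Sx cs h χ t)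
    (hpos : ∀ a ∈ Sx cs h χ t, 0 ≤ a → 0 ≤ θ a) {w : W} {k v : Y} (hk : Rp cs H.nsys w k) (hkt : k * t = t * k)
    (hαk : α k = k) (hv : v ∈ QQ0 cs h X χ α t) : ∃ b ∈ QQ0 cs h X χ α t, ∃ c ∈ QQ0 cs h X χ α t, v = b * c ∧
      k * b * k⁻¹ ∈ PP0 cs h X χ α t ∧ k * c * k⁻¹ ∈ QQ0 cs h X χ α t := by
  obtain ⟨b, hb, c, hc, e, h1, h2⟩ := dec_Un H C ht hk hkt hv.1
  obtain ⟨h3, h4⟩ := fix_dec (α := α) (UP := Up cs h X χ t) (UN := Un cs h X χ t)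
    (fun x hx hx' => eq_one_of_pos_neg H (Up_le hx) (Un_le hx')) (fun x => alpha_Up Fα hS hpos)
    (fun x => alpha_Un C Fα ht hS hpos hA) hαk h1 h2 (by rw [← e]; exact hv.2)
  have h5 : α (k * b * k⁻¹) = k * b * k⁻¹ := by rw [map_mul, map_mul, map_inv, hαk, h3]
  have h6 : α (k * c * k⁻¹) = k * c * k⁻¹ := by rw [map_mul, map_mul, map_inv, hαk, h4]
  exact ⟨b, ⟨hb, h3⟩, c, ⟨hc, h4⟩, e, ⟨h1, h5⟩, ⟨h2, h6⟩⟩

/-- `k` over `w`, commuting with `t` and fixed by `α`, normalises `KK0` -/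
theorem conj_KK0_rp (hA : ChAdd cs h (TL T) χ) {t : Y} (ht : t ∈ TL T) (hS : ∀ a, θ a ∈ Sx cs h χ t ↔ a ∈ Sx cs h χ t)
    (hpos : ∀ a ∈ Sx cs h χ t, 0 ≤ a → 0 ≤ θ a) {w : W} {k : Y} (hk : Rp cs H.nsys w k) (hkt : k * t = t * k)
    (hαk : α k = k) {x : Y} (hx : x ∈ KK0 cs h X χ α t) : k * x * k⁻¹ ∈ KK0 cs h X χ α t := by
  have h1 : KK0 cs h X χ α t ≤ (KK0 cs h X χ α t).comap (MulAut.conj k).toMonoidHom := by
    refine sup_le (fun v hv => ?_) (fun v hv => ?_)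
    · obtain ⟨b, -, c, -, e, h1, h2⟩ := dec_PP0 H C Fα hA ht hS hpos hk hkt hαk hv
      have e1 : k * v * k⁻¹ = (k * b * k⁻¹) * (k * c * k⁻¹) := by rw [e]; group
      have h3 : k * v * k⁻¹ ∈ KK0 cs h X χ α t := by
        rw [e1]
        exact mul_mem (Subgroup.mem_sup_left h1) (Subgroup.mem_sup_right h2)
      exact h3
    · obtain ⟨b, -, c, -, e, h1, h2⟩ := dec_QQ0 H C Fα hA ht hS hpos hk hkt hαk hv
      have e1 : k * v * k⁻¹ = (k * b * k⁻¹) * (k * c * k⁻¹) := by rw [e]; group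
      have h3 : k * v * k⁻¹ ∈ KK0 cs h X χ α t := by
        rw [e1]
        exact mul_mem (Subgroup.mem_sup_left h1) (Subgroup.mem_sup_right h2)
      exact h3
  exact h1 hx

/-- **Every element fixed by `α` and commuting with `t` normalises `KK0`.** -/
theorem conj_KK0 (hG : GG cs h (TL T) (XL X) = ⊤)
    (hsep : ∀ a, IsRoot cs h a → ∃ s ∈ TL T, ∀ u ∈ XL X a, u * s = s * u → u = 1) (hA : ChAdd cs h (TL T) χ)
    {t : Y} (ht : t ∈ TL T) (hS : ∀ a, θ a ∈ Sx cs h χ t ↔ a ∈ Sx cs h χ t) (hpos : ∀ a ∈ Sx cs h χ t, 0 ≤ a → 0 ≤ θ a)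
    {c : Y} (hc : c * t = t * c) (hαc : α c = c) {x : Y} (hx : x ∈ KK0 cs h X χ α t) :
    c * x * c⁻¹ ∈ KK0 cs h X χ α t := by
  obtain ⟨w, u, hu, hαu, k, hk, hkt, hαk, v, hv, hαv, -, rfl⟩ := form_fix H C Fα hG hsep hA ht hS hpos hc hαc
  have hu' : u ∈ KK0 cs h X χ α t := Subgroup.mem_sup_left ⟨hu, hαu⟩
  have hv' : v ∈ KK0 cs h X χ α t := Subgroup.mem_sup_left ⟨hv, hαv⟩
  have e : u * k * v * x * (u * k * v)⁻¹ = u * (k * (v * x * v⁻¹) * k⁻¹) * u⁻¹ := by group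
  rw [e]
  exact mul_mem (mul_mem hu' (conj_KK0_rp H C Fα hA ht hS hpos hk hkt hαk
    (mul_mem (mul_mem hv' hx) (inv_mem hv')))) (inv_mem hu')

variable {t : Y} (Dt : CDat cs h T X χ α θ t)

include H C Fα Dt

theorem PP0_le_fixC : PP0 cs h X χ α t ≤ fixC α t := fun _ hx => mem_fixC.2 ⟨hx.2, comm_Up C Dt.ht hx.1⟩

theorem QQ0_le_fixC : QQ0 cs h X χ α t ≤ fixC α t := fun _ hx => mem_fixC.2 ⟨hx.2, comm_Un C Dt.ht hx.1⟩

theorem KK0_le_fixC : KK0 cs h X χ α t ≤ fixC α t :=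
  sup_le (PP0_le_fixC H C Fα Dt) (QQ0_le_fixC H C Fα Dt)

/-- **`K0 ◁ C`.** -/
theorem KK0_normal : ((KK0 cs h X χ α t).subgroupOf (fixC α t)).Normal := by
  refine ⟨fun x hx c => ?_⟩
  rw [Subgroup.mem_subgroupOf] at hx ⊢
  obtain ⟨h1, h2⟩ := mem_fixC.1 c.2
  exact conj_KK0 H C Fα Dt.hG Dt.hsep Dt.hA Dt.ht Dt.hS Dt.hpos h2 h1 hx

/-- the sign of `w θ a` -/
theorem neg_theta {w : W} {k : Y} (hk : Rp cs H.nsys w k) (hkt : k * t = t * k) (hαk : α k = k) {a : I → ℤ}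
    (ha : a ∈ SP cs h χ t) (hw : rep cs h w a ≤ 0) : rep cs h w (θ a) ≤ 0 := by
  have har := ha.1.1
  have hθr : IsRoot cs h (θ a) := (Fα.root a).2 har
  rcases (hθr.act w).pos_or_neg with h0 | h0
  swap
  · exact h0
  exfalso
  -- a nontrivial element of `X (θ a)`
  have hy : xx a 1 ∈ XL X a := ((C.coord a har).mem _).2 ⟨1, rfl⟩
  have hy1 : xx a 1 ≠ 1 := (C.coord a har).ne_one one_ne_zero
  have hwa : rep cs h w a ∈ SN cs h χ t := by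
    refine ⟨⟨har.act w, ?_⟩, hw⟩
    have h1 := C.chi_rp H.nsys hk har Dt.ht
    have h2 : k * t * k⁻¹ = t := by rw [hkt]; group
    rw [h2] at h1
    rw [h1]
    exact ha.1.2
  have h1 : k * xx a 1 * k⁻¹ ∈ Un cs h X χ t := by
    have h2 : k * xx a 1 * k⁻¹ ∈ cj k (XL X a) := conj_mem_cj.2 hy
    rw [H.conj_rp hk har] at h2
    exact RGD.le_Sup hwa h2
  have h2 := Un_le (alpha_Un C Fα Dt.ht Dt.hS Dt.hpos Dt.hA h1)
  rw [map_mul, map_mul, map_inv, hαk] at h2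
  have h3 : k * α (xx a 1) * k⁻¹ ∈ RGD.Sup (XL X) (RGD.Pos cs h) := by
    have h4 : k * α (xx a 1) * k⁻¹ ∈ cj k (XL X (θ a)) := conj_mem_cj.2 ((Fα.map a har _).2 hy)
    rw [H.conj_rp hk hθr] at h4
    exact RGD.le_Sup (S := RGD.Pos cs h) ⟨hθr.act w, h0⟩ h4
  have h4 := eq_one_of_pos_neg H h3 h2
  rw [conj_eq_one_iff, map_eq_one_iff α α.injective] at h4
  exact hy1 h4

/-- **The elements of `N ∩ C` normalising `P` lie over the component group.** -/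
theorem mem_PP_of_normalizer (hne : ∀ Ψ : Set (I → ℤ), Ψ.Nonempty → Ψ ⊆ SP cs h χ t → (∀ a ∈ Ψ, θ a ∈ Ψ) →
      (∀ a ∈ Ψ, ∀ b ∈ Ψ, ∀ z, IsRoot cs h z → (∃ i j : ℕ, 0 < i ∧ 0 < j ∧ z = i • a + j • b) → z ∈ Ψ) →
      ∃ u ∈ RGD.Sup (XL X) Ψ, u ≠ 1 ∧ α u = u)
    {w : W} {k : Y} (hk : Rp cs H.nsys w k) (hkt : k * t = t * k) (hαk : α k = k)
    (hn : ∀ x ∈ PP0 cs h X χ α t, k * x * k⁻¹ ∈ PP0 cs h X χ α t) : w ∈ PP cs h χ t := by
  have hchi : ∀ a, IsRoot cs h a → χ (rep cs h w a) t = χ a t := by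
    intro a har
    have h1 := C.chi_rp H.nsys hk har Dt.ht
    have h2 : k * t * k⁻¹ = t := by rw [hkt]; group
    rwa [h2] at h1
  refine mem_PP.2 ⟨hchi, fun a ha ha0 => ?_⟩
  rcases (ha.1.act w).pos_or_neg with h0 | h0
  · exact h0
  exfalso
  obtain ⟨u, hu, hu1, hαu⟩ := hne {a | a ∈ SP cs h χ t ∧ rep cs h w a ≤ 0} ⟨a, ⟨ha, ha0⟩, h0⟩ (fun a ha => ha.1)
    (fun a ha => ⟨⟨(Dt.hS a).2 ha.1.1, Dt.hpos a ha.1.1 ha.1.2⟩,
      neg_theta H C Fα Dt hk hkt hαk ha.1 ha.2⟩)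
    (by
      rintro a ha b hb z hz ⟨i, j, hi, hj, rfl⟩
      refine ⟨⟨⟨hz, ?_⟩, add_nonneg (nsmul_nonneg ha.1.2 i) (nsmul_nonneg hb.1.2 j)⟩, ?_⟩
      · obtain ⟨φ, h0, hadd, hφ⟩ := Dt.hA t Dt.ht
        have hm : ∀ (i : ℕ) (x : I → ℤ), φ (i • x) = φ x ^ i := by
          intro i x
          induction i with
          | zero => rw [zero_smul, pow_zero, h0]
          | succ i ih => rw [succ_nsmul, hadd, ih, pow_succ]
        rw [hφ _ hz, hadd, hm, hm, ← hφ a ha.1.1.1, ← hφ b hb.1.1.1, ha.1.1.2, hb.1.1.2, one_pow, one_pow, one_mul]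
      · rw [map_add, map_nsmul, map_nsmul]
        exact add_nonpos (nsmul_nonpos ha.2 i) (nsmul_nonpos hb.2 j))
  have huP : u ∈ PP0 cs h X χ α t := ⟨RGD.Sup_mono (S := {a | a ∈ SP cs h χ t ∧ rep cs h w a ≤ 0})
    (S' := SP cs h χ t) (fun a ha => ha.1) hu, hαu⟩
  have h1 := Up_le (hn u huP).1
  have h2 : k * u * k⁻¹ ∈ RGD.Sup (XL X) (Neg cs h) :=
    conj_SupL H hk (S' := Neg cs h) (fun x hx => hx.1.1.1) (fun x hx => ⟨hx.1.1.1.act w, hx.2⟩) hu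
  have h3 := eq_one_of_pos_neg H h1 h2
  rw [conj_eq_one_iff] at h3
  exact hu1 h3

/-- **Frattini.** -/
theorem frattini (hne : ∀ Ψ : Set (I → ℤ), Ψ.Nonempty → Ψ ⊆ SP cs h χ t → (∀ a ∈ Ψ, θ a ∈ Ψ) →
      (∀ a ∈ Ψ, ∀ b ∈ Ψ, ∀ z, IsRoot cs h z → (∃ i j : ℕ, 0 < i ∧ 0 < j ∧ z = i • a + j • b) → z ∈ Ψ) →
      ∃ u ∈ RGD.Sup (XL X) Ψ, u ≠ 1 ∧ α u = u)
    {q : ℕ} [Fact q.Prime] [Finite ↥(fixC α t)] (P : Sylow q ↥(fixC α t))
    (hP : (P : Subgroup ↥(fixC α t)) = (PP0 cs h X χ α t).subgroupOf (fixC α t)) {c : Y} (hc : c ∈ fixC α t) :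
    ∃ κ ∈ KK0 cs h X χ α t, ∃ w ∈ PP cs h χ t, ∃ k, Rp cs H.nsys w k ∧ k * t = t * k ∧ α k = k ∧ c = κ * k := by
  have hN := KK0_normal H C Fα Dt
  have hPK : (P : Subgroup ↥(fixC α t)) ≤ (KK0 cs h X χ α t).subgroupOf (fixC α t) := by
    rw [hP]
    intro x hx
    rw [Subgroup.mem_subgroupOf] at hx ⊢
    exact Subgroup.mem_sup_left hx
  have h1 := P.normalizer_sup_eq_top' hPK
  have h2 : (⟨c, hc⟩ : ↥(fixC α t)) ∈ (KK0 cs h X χ α t).subgroupOf (fixC α t) ⊔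
      Subgroup.normalizer ((P : Subgroup ↥(fixC α t)) : Set ↥(fixC α t)) := by
    rw [sup_comm]
    have h3 : (⟨c, hc⟩ : ↥(fixC α t)) ∈ (⊤ : Subgroup ↥(fixC α t)) := Subgroup.mem_top _
    rw [← h1] at h3
    exact h3
  rw [← SetLike.mem_coe, Subgroup.normal_mul] at h2
  obtain ⟨κ, hκ, c', hc', e⟩ := h2
  have e' : (κ : Y) * c' = c := congrArg Subtype.val e
  obtain ⟨h3, h4⟩ := mem_fixC.1 c'.2
  obtain ⟨w, u, hu, hαu, k, hk, hkt, hαk, v, hv, hαv, -, e1⟩ :=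
    form_fix H C Fα Dt.hG Dt.hsep Dt.hA Dt.ht Dt.hS Dt.hpos h4 h3
  have hu' : u ∈ PP0 cs h X χ α t := ⟨hu, hαu⟩
  have hv' : v ∈ PP0 cs h X χ α t := ⟨hv, hαv⟩
  have hcn : ∀ x ∈ PP0 cs h X χ α t, (c' : Y) * x * (c' : Y)⁻¹ ∈ PP0 cs h X χ α t := by
    intro x hx
    have h5 : (⟨x, PP0_le_fixC H C Fα Dt hx⟩ : ↥(fixC α t)) ∈ (P : Subgroup ↥(fixC α t)) := by
      rw [hP]; exact hx
    have h6 := (Subgroup.mem_normalizer_iff.1 hc' _).1 h5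
    rw [hP] at h6
    exact h6
  have hkn : ∀ x ∈ PP0 cs h X χ α t, k * x * k⁻¹ ∈ PP0 cs h X χ α t := by
    intro x hx
    have h5 := hcn (v⁻¹ * x * v) (mul_mem (mul_mem (inv_mem hv') hx) hv')
    have e2 : k * x * k⁻¹ = u⁻¹ * ((c' : Y) * (v⁻¹ * x * v) * (c' : Y)⁻¹) * u := by rw [e1]; group
    rw [e2]
    exact mul_mem (mul_mem (inv_mem hu') h5) hu'
  have hw := mem_PP_of_normalizer H C Fα Dt hne hk hkt hαk hkn
  have hκ' : (κ : Y) ∈ KK0 cs h X χ α t := hκ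
  have hkK : u * (k * v * k⁻¹) ∈ KK0 cs h X χ α t :=
    mul_mem (Subgroup.mem_sup_left hu') (Subgroup.mem_sup_left (hkn v hv'))
  refine ⟨κ * (u * (k * v * k⁻¹)), mul_mem hκ' hkK, w, hw, k, hk, hkt, hαk, ?_⟩
  rw [← e', e1]
  group

/-- **The powers.** -/
theorem pow_mem_KT (hne : ∀ Ψ : Set (I → ℤ), Ψ.Nonempty → Ψ ⊆ SP cs h χ t → (∀ a ∈ Ψ, θ a ∈ Ψ) →
      (∀ a ∈ Ψ, ∀ b ∈ Ψ, ∀ z, IsRoot cs h z → (∃ i j : ℕ, 0 < i ∧ 0 < j ∧ z = i • a + j • b) → z ∈ Ψ) →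
      ∃ u ∈ RGD.Sup (XL X) Ψ, u ≠ 1 ∧ α u = u)
    {q : ℕ} [Fact q.Prime] [Finite ↥(fixC α t)] (P : Sylow q ↥(fixC α t))
    (hP : (P : Subgroup ↥(fixC α t)) = (PP0 cs h X χ α t).subgroupOf (fixC α t)) {c : Y} (hc : c ∈ fixC α t) :
    c ^ Nat.card ↥(PP cs h χ t) ∈ KK0 cs h X χ α t ⊔ (TL T ⊓ Cfsg.fixedSubgroup α) := by
  obtain ⟨κ, hκ, w, hw, k, hk, hkt, hαk, rfl⟩ := frattini H C Fα Dt hne P hP hc
  -- modulo `K0`
  have h1 : ∀ m : ℕ, ∃ κ' ∈ KK0 cs h X χ α t, (κ * k) ^ m = κ' * k ^ m := by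
    intro m
    induction m with
    | zero => exact ⟨1, one_mem _, by rw [pow_zero, pow_zero, mul_one]⟩
    | succ m ih =>
      obtain ⟨κ', hκ', e⟩ := ih
      refine ⟨κ * (k * κ' * k⁻¹), mul_mem hκ
        (conj_KK0_rp H C Fα Dt.hA Dt.ht Dt.hS Dt.hpos hk hkt hαk hκ'), ?_⟩
      rw [pow_succ', e, pow_succ']
      group
  obtain ⟨κ', hκ', e⟩ := h1 (Nat.card ↥(PP cs h χ t))
  have h2 : ∀ m : ℕ, Rp cs H.nsys (w ^ m) (k ^ m) := by
    intro m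
    induction m with
    | zero => rw [pow_zero, pow_zero]; exact rp_one
    | succ m ih => rw [pow_succ, pow_succ]; exact ih.mul hk
  have h3 : w ^ Nat.card ↥(PP cs h χ t) = 1 := by
    have h4 : (⟨w, hw⟩ : ↥(PP cs h χ t)) ^ Nat.card ↥(PP cs h χ t) = 1 := pow_card_eq_one'
    exact congrArg Subtype.val h4
  have h5 := h2 (Nat.card ↥(PP cs h χ t))
  rw [h3] at h5
  rw [e]
  refine mul_mem (Subgroup.mem_sup_left hκ') (Subgroup.mem_sup_right ⟨h5.mem_of_one, ?_⟩)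
  have h6 : α (k ^ Nat.card ↥(PP cs h χ t)) = k ^ Nat.card ↥(PP cs h χ t) := by rw [map_pow, hαk]
  exact h6

/-- **The elements of order prime to the order of the component group.** -/
theorem mem_of_coprime (hne : ∀ Ψ : Set (I → ℤ), Ψ.Nonempty → Ψ ⊆ SP cs h χ t → (∀ a ∈ Ψ, θ a ∈ Ψ) →
      (∀ a ∈ Ψ, ∀ b ∈ Ψ, ∀ z, IsRoot cs h z → (∃ i j : ℕ, 0 < i ∧ 0 < j ∧ z = i • a + j • b) → z ∈ Ψ) →
      ∃ u ∈ RGD.Sup (XL X) Ψ, u ≠ 1 ∧ α u = u)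
    {q : ℕ} [Fact q.Prime] [Finite ↥(fixC α t)] (P : Sylow q ↥(fixC α t))
    (hP : (P : Subgroup ↥(fixC α t)) = (PP0 cs h X χ α t).subgroupOf (fixC α t)) {c : Y} (hc : c ∈ fixC α t)
    {d : ℕ} (hd : d.Coprime (Nat.card ↥(PP cs h χ t))) (hcd : c ^ d = 1) :
    c ∈ KK0 cs h X χ α t ⊔ (TL T ⊓ Cfsg.fixedSubgroup α) := by
  have h1 := pow_mem_KT H C Fα Dt hne P hP hc
  have h2 : c ∈ Subgroup.zpowers (c ^ Nat.card ↥(PP cs h χ t)) := by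
    have h3 : (orderOf c).Coprime (Nat.card ↥(PP cs h χ t)) := hd.coprime_dvd_left (orderOf_dvd_of_pow_eq_one hcd)
    rw [Subgroup.mem_zpowers_iff]
    obtain ⟨m, hm⟩ := exists_pow_eq_self_of_coprime h3.symm
    exact ⟨m, by rw [zpow_natCast]; exact hm⟩
  exact (Subgroup.zpowers_le.2 h1) h2

/-- **The Bruhat form.** -/
theorem formF (hne : HNe cs h X χ α θ t) : Cfsg.Agent.BpExc.NSol.Form (fixC α t) (Up cs h X χ t) (Un cs h X χ t)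
    (NGL H) (NPL H χ t) where
  form g hg := by
    obtain ⟨h3, h4⟩ := mem_fixC.1 hg
    obtain ⟨w, u, hu, hαu, k, hk, hkt, hαk, v, hv, hαv, hkv, e1⟩ :=
      form_fix H C Fα Dt.hG Dt.hsep Dt.hA Dt.ht Dt.hS Dt.hpos h4 h3
    exact ⟨u, ⟨hu, mem_fixC.2 ⟨hαu, comm_Up C Dt.ht hu⟩⟩, k, ⟨⟨w, hk⟩, mem_fixC.2 ⟨hαk, hkt⟩⟩, v,
      ⟨hv, mem_fixC.2 ⟨hαv, comm_Up C Dt.ht hv⟩⟩, hkv, e1⟩
  inf := by
    rw [eq_bot_iff]
    rintro x ⟨h1, h2⟩
    exact Subgroup.mem_bot.2 (eq_one_of_pos_neg H (Up_le h1) (Un_le h2))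
  move := by
    rintro k ⟨⟨w, hk⟩, hkC⟩ hn
    obtain ⟨hαk, hkt⟩ := mem_fixC.1 hkC
    have hw : ¬ ∀ x ∈ PP0 cs h X χ α t, k * x * k⁻¹ ∈ PP0 cs h X χ α t := fun hx =>
      hn ⟨w, mem_PP_of_normalizer H C Fα Dt hne hk hkt hαk hx, hk⟩
    push Not at hw
    obtain ⟨x, hx, hx'⟩ := hw
    obtain ⟨b, hb, c, hc, e, h1, h2⟩ := dec_PP0 H C Fα Dt.hA Dt.ht Dt.hS Dt.hpos hk hkt hαk hx
    refine ⟨c, ⟨hc.1, PP0_le_fixC H C Fα Dt hc⟩, fun hc1 => hx' ?_, h2.1⟩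
    rw [e, hc1, mul_one]
    exact h1
  norm := by
    rintro k ⟨⟨w, hw, hk⟩, -⟩ u hu
    exact norm_Up H hk hw hu.1

/-- **The order of the complement.** -/
theorem coprime_NPL [Fact p.Prime] [Finite ↥(fixC α t)] (hPP : (Nat.card ↥(PP cs h χ t)).Coprime p) :
    (Nat.card ↥(NPL H χ t ⊓ fixC α t)).Coprime p := by
  have hpp : p.Prime := Fact.out
  have hfin : Finite ↥(NPL H χ t ⊓ fixC α t) :=
    Finite.of_injective (Subgroup.inclusion inf_le_right) (Subgroup.inclusion_injective _)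
  rw [Nat.coprime_comm, Nat.Prime.coprime_iff_not_dvd hpp]
  intro hdvd
  obtain ⟨x, hx⟩ := exists_prime_orderOf_dvd_card' p hdvd
  obtain ⟨⟨w, hw, hk⟩, hxC⟩ := x.2
  have hxp : (x : Y) ^ p = 1 := by
    have h1 := pow_orderOf_eq_one x
    rw [hx] at h1
    exact congrArg Subtype.val h1
  have h2 : ∀ m : ℕ, Rp cs H.nsys (w ^ m) ((x : Y) ^ m) := by
    intro m
    induction m with
    | zero => rw [pow_zero, pow_zero]; exact rp_one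
    | succ m ih => rw [pow_succ, pow_succ]; exact ih.mul hk
  have h3 : w ^ p = 1 := by
    have h4 := h2 p
    rw [hxp] at h4
    exact rpL_unique H h4 rp_one
  have h5 : w = 1 := by
    have h6 : (⟨w, hw⟩ : ↥(PP cs h χ t)) ^ p = 1 := Subtype.ext h3
    have h7 := orderOf_dvd_of_pow_eq_one h6
    have h8 := orderOf_dvd_natCard (⟨w, hw⟩ : ↥(PP cs h χ t))
    have h9 := Nat.eq_one_of_dvd_coprimes hPP h8 h7
    rw [orderOf_eq_one_iff] at h9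
    exact congrArg Subtype.val h9
  rw [h5] at hk
  obtain ⟨j, hj⟩ := H.mem_TL.1 hk.mem_of_one
  have h6 : orderOf (x : Y) ∣ Nat.card ↥(T j) := by
    have := orderOf_dvd_natCard (⟨(x : Y), hj⟩ : ↥(T j))
    rwa [Subgroup.orderOf_mk] at this
  have h7 : orderOf (x : Y) = 1 :=
    Nat.eq_one_of_dvd_coprimes (H.rgd j).tcop h6 (orderOf_dvd_of_pow_eq_one hxp)
  have h8 : orderOf x = 1 := by rw [← h7]; exact (Subgroup.orderOf_coe x).symm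
  rw [hx] at h8
  exact hpp.one_lt.ne' h8

/-- **`P` is a Sylow subgroup.** -/
theorem exists_sylow_P [Fact p.Prime] [Finite ↥(fixC α t)] (hne : HNe cs h X χ α θ t)
    (hPP : (Nat.card ↥(PP cs h χ t)).Coprime p) :
    ∃ P : Sylow p ↥(fixC α t), (P : Subgroup ↥(fixC α t)) = (PP0 cs h X χ α t).subgroupOf (fixC α t) := by
  obtain ⟨P, hP⟩ := (formF H C Fα Dt hne).exists_sylow ((isPGroup_Up H (χ := χ) (t := t)).comap_subtype)
    (coprime_NPL H C Fα Dt hPP)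
  refine ⟨P, ?_⟩
  rw [hP]
  ext x
  rw [Subgroup.mem_subgroupOf, Subgroup.mem_subgroupOf]
  exact ⟨fun hx => ⟨hx, (mem_fixC.1 x.2).1⟩, fun hx => hx.1⟩

end

section

open CoxeterSystem Cfsg Cfsg.Lie Cfsg.Lie.ChevalleyDatum
open Cfsg.Agent.ChevalleyStructure Cfsg.Agent.ChevalleyStructure.Elts Cfsg.Agent.ChevalleyStructure.CoxeterGeom
  Cfsg.Agent.ChevalleyStructure.CoxeterGeomTypes Cfsg.Agent.ChevalleyStructure.NPerm
open Cfsg.Agent.Tits.Roots Cfsg.Agent.Tits.Core Cfsg.Agent.Nodes Cfsg.Agent.Nodes.Reps Cfsg.Agent.Nodes.BNOf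
  Cfsg.Agent.Nodes.RGDChev Cfsg.Agent.Nodes.Bruhat Cfsg.Agent.Nodes.NormalForm Cfsg.Agent.Nodes.OppDec
open Cfsg.Agent.KFacts.RgdField Cfsg.Agent.KFacts.RgdChevCoord
open Cfsg.Agent.BpExc Cfsg.Agent.BpExc.TorCent Cfsg.Agent.BpExc.TorChev Cfsg.Agent.BpExc.Tow
  Cfsg.Agent.BpExc.TowChev Cfsg.Agent.BpExc.Fr Cfsg.Agent.BpExc.Pair Cfsg.Agent.BpExc.LangFr Cfsg.Agent.GpExc.Field
  Cfsg.Agent.BpExc.NChev
open Cfsg.Agent.H28.RG Cfsg.Agent.H169.RG Cfsg.Agent.H469.Exc Cfsg.Agent.H316.U6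

universe u v

section

variable {D : ChevalleyDatum} {l : ℕ} {M : CoxeterMatrix (Fin l)} {hp : IsType D l M} {k : Type u} [Field k]
  {W : Type v} [Group W] {cs : CoxeterSystem M W} {r : ℕ} [Fact r.Prime] [CharP k r]

/-- The data. -/
structure DFr (hp : IsType D l M) (cs : CoxeterSystem M W) (r e : ℕ) [Fact r.Prime] [CharP k r]
    (τ : MulAut ↥(D.group k)) (g : (Fin l → ℤ) ≃+ (Fin l → ℤ)) (t : ↥(D.group k)) : Prop where
  he : 0 < e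
  frob : IsFrob r e τ
  fr : Fr cs hp.isCartan (TT D k) (XX D l k) τ g
  mem : t ∈ TT D k
  stab : ∀ a, g a ∈ Sx cs hp.isCartan (ch hp) t ↔ a ∈ Sx cs hp.isCartan (ch hp) t
  pos : ∀ a ∈ Sx cs hp.isCartan (ch hp) t, 0 ≤ a → 0 ≤ g a

variable {e : ℕ} {τ : MulAut ↥(D.group k)} {g : (Fin l → ℤ) ≃+ (Fin l → ℤ)} {t : ↥(D.group k)}

theorem DFr.frTL (d : DFr hp cs r e τ g t) (hk : LocFin k) :
    Fr cs hp.isCartan (TL (Tj hp (k := k))) (XL (Xj hp (k := k))) τ g := by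
  rw [TL_eq hp hk, XL_eq hp hk]
  exact d.fr

theorem DFr.cdat [IsAlgClosed k] (d : DFr hp cs r e τ g t) (hk : LocFin k) :
    CDat cs hp.isCartan (Tj hp (k := k)) (Xj hp (k := k)) (ch hp) τ g t where
  hG := GG_eq_top (k := k) hp cs hk
  hsep := by
    rw [TL_eq hp hk, XL_eq hp hk]
    exact fun a ha => sep hp cs hk r ha
  hA := by
    rw [TL_eq hp hk]
    exact chAddL (k := k) hp cs hk r
  ht := by rw [TL_eq hp hk]; exact d.mem
  hS := d.stab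
  hpos := d.pos

theorem DFr.hne [IsAlgClosed k] (d : DFr hp cs r e τ g t) (hk : LocFin k) :
    HNe cs hp.isCartan (Xj hp (k := k)) (ch hp) τ g t := by
  intro Ψ hne hP hg hcl
  rw [XL_eq hp hk]
  exact exists_fixed_ne (hp := hp) hk d.he d.frob d.fr hne (fun a ha => ⟨(hP ha).1.1, (hP ha).2⟩) hcl hg

/-- the order of `t` is prime to `r` -/
theorem DFr.ord (d : DFr hp cs r e τ g t) (hk : LocFin k) : (orderOf t).Coprime r := by
  have H := tow (k := k) hp cs hk r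
  have h1 : t ∈ TL (Tj hp (k := k)) := by rw [TL_eq hp hk]; exact d.mem
  obtain ⟨j, hj⟩ := H.mem_TL.1 h1
  have h2 : orderOf t ∣ Nat.card ↥(Tj hp j) := by
    have := orderOf_dvd_natCard (⟨t, hj⟩ : ↥(Tj hp j))
    rwa [Subgroup.orderOf_mk] at this
  exact (H.rgd j).tcop.coprime_dvd_left h2

/-- the characters of `t` -/
theorem DFr.chi_pow (d : DFr hp cs r e τ g t) (hk : LocFin k) {m : ℕ} (hm : t ^ m = 1) (a : Fin l → ℤ)
    (ha : IsRoot cs hp.isCartan a) : ch hp a t ^ m = 1 := by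
  have C := coordsL (k := k) hp cs hk r
  have h0 : ch hp a (1 : ↥(D.group k)) = 1 := by
    have h1 := (C.coord a ha).chi_mul (one_mem (TT D k)) (one_mem _)
    rw [mul_one] at h1
    exact (mul_eq_left₀ ((C.coord a ha).chi_ne_zero (one_mem _))).1 h1.symm
  have h1 : ∀ m : ℕ, ch hp a (t ^ m) = ch hp a t ^ m := by
    intro m
    induction m with
    | zero => rw [pow_zero, pow_zero, h0]
    | succ m ih => rw [pow_succ, pow_succ, (C.coord a ha).chi_mul (pow_mem d.mem m) d.mem, ih]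
  rw [← h1, hm, h0]

/-- the primes dividing the order of the component group divide the order of `t` -/
theorem DFr.prime_dvd [Finite W] (d : DFr hp cs r e τ g t) (hk : LocFin k) {q : ℕ} (hq : q.Prime)
    (hqd : q ∣ Nat.card ↥(PP cs hp.isCartan (ch hp) t)) : q ∣ orderOf t := by
  exact prime_dvd_PP (chAddL (k := k) hp cs hk r) d.mem
    (d.chi_pow hk (pow_orderOf_eq_one t)) hq hqd

theorem DFr.coprime_PP [Finite W] (d : DFr hp cs r e τ g t) (hk : LocFin k) {m : ℕ} (hm : m.Coprime (orderOf t)) :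
    m.Coprime (Nat.card ↥(PP cs hp.isCartan (ch hp) t)) := by
  rw [Nat.coprime_iff_gcd_eq_one]
  by_contra hcon
  obtain ⟨q, hq, hqd⟩ := Nat.exists_prime_and_dvd hcon
  have h1 := d.prime_dvd hk hq (hqd.trans (Nat.gcd_dvd_right _ _))
  have h2 := Nat.dvd_gcd (hqd.trans (Nat.gcd_dvd_left _ _)) h1
  rw [hm] at h2
  exact hq.one_lt.ne' (Nat.dvd_one.1 h2)

/-- **F2: `PK` is a Sylow subgroup.** -/
theorem DFr.sylP [IsAlgClosed k] (d : DFr hp cs r e τ g t) (hk : LocFin k) [Finite ↥(fixC τ t)] :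
    ∃ P : Sylow r ↥(fixC τ t), (P : Subgroup ↥(fixC τ t)) = (PK hp cs τ t).subgroupOf (fixC τ t) := by
  have := finite_W hp cs
  rw [← PP0_eq hk]
  exact exists_sylow_P (tow (k := k) hp cs hk r) (coordsTL hk r) (d.frTL hk) (d.cdat hk) (d.hne hk)
    (d.coprime_PP hk (d.ord hk).symm).symm

theorem DFr.PK_le [IsAlgClosed k] (d : DFr hp cs r e τ g t) (hk : LocFin k) : PK hp cs τ t ≤ fixC τ t := by
  have := finite_W hp cs
  rw [← PP0_eq hk]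
  exact PP0_le_fixC (tow (k := k) hp cs hk r) (coordsTL hk r) (d.frTL hk) (d.cdat hk)

theorem DFr.QK_le [IsAlgClosed k] (d : DFr hp cs r e τ g t) (hk : LocFin k) : QK hp cs τ t ≤ fixC τ t := by
  have := finite_W hp cs
  rw [← QQ0_eq hk]
  exact QQ0_le_fixC (tow (k := k) hp cs hk r) (coordsTL hk r) (d.frTL hk) (d.cdat hk)

theorem DFr.TK_le (d : DFr hp cs r e τ g t) : TK τ ≤ fixC τ t := fun _ hx =>
  mem_fixC.2 ⟨hx.2, TT_comm hp _ hx.1 t d.mem⟩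

theorem DFr.PK_inf_QK (_d : DFr hp cs r e τ g t) (hk : LocFin k) : PK hp cs τ t ⊓ QK hp cs τ t = ⊥ := by
  have := finite_W hp cs
  rw [← PP0_eq hk, ← QQ0_eq hk, eq_bot_iff]
  rintro x ⟨h1, h2⟩
  exact Subgroup.mem_bot.2 (eq_one_of_pos_neg (tow (k := k) hp cs hk r) (Up_le h1.1) (Un_le h2.1))

/-- **F3: `⟨PK, QK⟩ ◁ C`.** -/
theorem DFr.KK_normal [IsAlgClosed k] (d : DFr hp cs r e τ g t) (hk : LocFin k) :
    ((PK hp cs τ t ⊔ QK hp cs τ t).subgroupOf (fixC τ t)).Normal := by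
  have := finite_W hp cs
  rw [← KK0_eq hk]
  exact KK0_normal (tow (k := k) hp cs hk r) (coordsTL hk r) (d.frTL hk) (d.cdat hk)

/-- **The Bruhat form of the elements of `C`.** -/
theorem DFr.formC [IsAlgClosed k] (d : DFr hp cs r e τ g t) (hk : LocFin k) {c : ↥(D.group k)}
    (hc : c ∈ fixC τ t) : ∃ w, ∃ u ∈ PK hp cs τ t, ∃ y ∈ fixC τ t, Rp cs (nsysTT hp cs hk r) w y ∧
      ∃ v ∈ PK hp cs τ t, y * v * y⁻¹ ∈ QK hp cs τ t ∧ c = u * y * v := by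
  have := finite_W hp cs
  obtain ⟨h1, h2⟩ := mem_fixC.1 hc
  have Dt : CDat cs hp.isCartan (Tj hp (k := k)) (Xj hp (k := k)) (ch hp) τ g t := d.cdat hk
  obtain ⟨w, u, hu, hαu, y, hy, hyt, hαy, v, hv, hαv, hyv, e1⟩ := form_fix (tow (k := k) hp cs hk r)
    (coordsTL hk r) (d.frTL hk) Dt.hG Dt.hsep Dt.hA Dt.ht Dt.hS Dt.hpos h2 h1
  refine ⟨w, u, by rw [← PP0_eq hk]; exact ⟨hu, hαu⟩, y, mem_fixC.2 ⟨hαy, hyt⟩, (rp_iff hk).1 hy, v,
    by rw [← PP0_eq hk]; exact ⟨hv, hαv⟩, ?_, e1⟩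
  rw [← QQ0_eq hk]
  have h3 : τ (y * v * y⁻¹) = y * v * y⁻¹ := by rw [map_mul, map_mul, map_inv, hαy, hαv]
  exact ⟨hyv, h3⟩

/-- **F3: the elements of `C` modulo `⟨PK, QK⟩`.** -/
theorem DFr.frattiniC [IsAlgClosed k] [Finite W] (d : DFr hp cs r e τ g t) (hk : LocFin k) [Finite ↥(fixC τ t)]
    {c : ↥(D.group k)} (hc : c ∈ fixC τ t) : ∃ κ ∈ PK hp cs τ t ⊔ QK hp cs τ t,
      ∃ w ∈ PP cs hp.isCartan (ch hp) t, ∃ y ∈ fixC τ t, Rp cs (nsysTT hp cs hk r) w y ∧ c = κ * y := by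
  obtain ⟨P, hP⟩ := d.sylP hk
  rw [← PP0_eq hk] at hP
  obtain ⟨κ, hκ, w, hw, y, hy, hyt, hαy, e1⟩ := frattini (tow (k := k) hp cs hk r) (coordsTL hk r) (d.frTL hk)
    (d.cdat hk) (d.hne hk) P hP hc
  rw [KK0_eq hk] at hκ
  exact ⟨κ, hκ, w, hw, y, mem_fixC.2 ⟨hαy, hyt⟩, (rp_iff hk).1 hy, e1⟩

/-- **F3: the elements of order prime to the order of `t`.** -/
theorem DFr.mem_of_coprimeC [IsAlgClosed k] (d : DFr hp cs r e τ g t) (hk : LocFin k) [Finite ↥(fixC τ t)]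
    {c : ↥(D.group k)} (hc : c ∈ fixC τ t) {m : ℕ} (hm : m.Coprime (orderOf t)) (hcm : c ^ m = 1) :
    c ∈ PK hp cs τ t ⊔ QK hp cs τ t ⊔ TK τ := by
  have := finite_W hp cs
  obtain ⟨P, hP⟩ := d.sylP hk
  rw [← PP0_eq hk] at hP
  have h1 := mem_of_coprime (tow (k := k) hp cs hk r) (coordsTL hk r) (d.frTL hk)
    (d.cdat hk) (d.hne hk) P hP hc (d.coprime_PP hk hm) hcm
  rw [KK0_eq hk, TL_eq hp hk] at h1
  exact h1

/-- `TK` normalises `PK` -/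
theorem DFr.TK_PK (_d : DFr hp cs r e τ g t) (hk : LocFin k) {s x : ↥(D.group k)} (hs : s ∈ TK τ)
    (hx : x ∈ PK hp cs τ t) : s * x * s⁻¹ ∈ PK hp cs τ t := by
  have := finite_W hp cs
  have h1 := (tow (k := k) hp cs hk r).T_le_normalizer (S := SP cs hp.isCartan (ch hp) t) (fun x hx => hx.1.1)
    (by rw [TL_eq hp hk]; exact hs.1)
  rw [XL_eq hp hk] at h1
  have h2 : τ (s * x * s⁻¹) = s * x * s⁻¹ := by rw [map_mul, map_mul, map_inv, hs.2, hx.2]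
  exact ⟨(Subgroup.mem_normalizer_iff.1 h1 x).1 hx.1, h2⟩

/-- `TK` normalises `QK` -/
theorem DFr.TK_QK (_d : DFr hp cs r e τ g t) (hk : LocFin k) {s x : ↥(D.group k)} (hs : s ∈ TK τ)
    (hx : x ∈ QK hp cs τ t) : s * x * s⁻¹ ∈ QK hp cs τ t := by
  have := finite_W hp cs
  have h1 := (tow (k := k) hp cs hk r).T_le_normalizer (S := SN cs hp.isCartan (ch hp) t) (fun x hx => hx.1.1)
    (by rw [TL_eq hp hk]; exact hs.1)
  rw [XL_eq hp hk] at h1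
  have h2 : τ (s * x * s⁻¹) = s * x * s⁻¹ := by rw [map_mul, map_mul, map_inv, hs.2, hx.2]
  exact ⟨(Subgroup.mem_normalizer_iff.1 h1 x).1 hx.1, h2⟩

/-! ### the negative side -/

/-- the opposite data -/
theorem DFr.opp [IsAlgClosed k] (d : DFr hp cs r e τ g t) (hk : LocFin k) :
    ∃ (y : ↥(D.group k)) (g' : (Fin l → ℤ) ≃+ (Fin l → ℤ)),
      DFr hp cs r e (MulAut.conj y * τ * (MulAut.conj y)⁻¹) g' (y * t * y⁻¹) ∧
      ∀ x, x ∈ QK hp cs τ t ↔ y * x * y⁻¹ ∈ PK hp cs (MulAut.conj y * τ * (MulAut.conj y)⁻¹) (y * t * y⁻¹) := by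
  have := finite_W hp cs
  have H := tow (k := k) hp cs hk r
  have C := coordsTL (hp := hp) (cs := cs) (k := k) hk r
  obtain ⟨w0, hw0⟩ := Cfsg.Agent.Nodes.Sys.exists_longest cs hp.isCartan
  obtain ⟨y, -, hy⟩ := H.exists_rp w0⁻¹
  have hneg : ∀ x, IsRoot cs hp.isCartan x → x ≤ 0 → 0 ≤ rep cs hp.isCartan w0⁻¹ x := by
    intro x hx h0
    have h1 := hw0 (-x) hx.neg (neg_nonneg.2 h0)
    rwa [map_neg, neg_nonpos] at h1
  have hback : ∀ x, IsRoot cs hp.isCartan x → 0 ≤ x → rep cs hp.isCartan w0 x ≤ 0 := by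
    intro x hx h0
    rcases (hx.act w0).pos_or_neg with h1 | h1
    · exfalso
      have h2 := hw0 _ (hx.act w0) h1
      rw [← rep_mul_apply, inv_mul_cancel, map_one, Module.End.one_apply] at h2
      exact hx.not_pos_neg h0 h2
    · exact h1
  have Fy : Fr cs hp.isCartan (TT D k) (XX D l k) (MulAut.conj y) (repAut cs hp.isCartan w0⁻¹) := by
    have h1 := Fr.conj H hy
    rwa [TL_eq hp hk, XL_eq hp hk] at h1
  have F' := (Fy.mul d.fr).mul Fy.inv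
  have hty : y * t * y⁻¹ ∈ TT D k := (Fy.tor t).2 d.mem
  have hSx : ∀ a, IsRoot cs hp.isCartan a → (rep cs hp.isCartan w0⁻¹ a ∈ Sx cs hp.isCartan (ch hp) (y * t * y⁻¹) ↔
      a ∈ Sx cs hp.isCartan (ch hp) t) := by
    intro a ha
    have h1 := C.chi_rp H.nsys hy ha (t := t) (by rw [TL_eq hp hk]; exact d.mem)
    constructor
    · rintro ⟨-, h2⟩
      exact ⟨ha, by rw [← h1]; exact h2⟩
    · rintro ⟨-, h2⟩
      exact ⟨ha.act _, by rw [h1]; exact h2⟩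
  have hrep : ∀ a, rep cs hp.isCartan w0⁻¹ (rep cs hp.isCartan w0 a) = a := fun a => by
    rw [← rep_mul_apply, inv_mul_cancel, map_one, Module.End.one_apply]
  have hrep' : ∀ a, rep cs hp.isCartan w0 (rep cs hp.isCartan w0⁻¹ a) = a := fun a => by
    rw [← rep_mul_apply, mul_inv_cancel, map_one, Module.End.one_apply]
  have Dt : CDat cs hp.isCartan (Tj hp (k := k)) (Xj hp (k := k)) (ch hp) τ g t := d.cdat hk
  have hτ' : ∀ x, (MulAut.conj y * τ * (MulAut.conj y)⁻¹) (y * x * y⁻¹) = y * τ x * y⁻¹ := by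
    intro x
    have e1 : (MulAut.conj y)⁻¹ (y * x * y⁻¹) = x := by
      rw [← MulAut.conj_apply, MulAut.inv_apply_self]
    rw [MulAut.mul_apply, MulAut.mul_apply, e1, MulAut.conj_apply]
  refine ⟨y, _, ⟨d.he, ?_, F', hty, ?_, ?_⟩, ?_⟩
  · have h1 := ((IsFrob.conj (p := r) y).mul d.frob).mul (IsFrob.conj (p := r) y⁻¹)
    rw [zero_add, add_zero, map_inv] at h1
    exact h1
  · intro a
    have h2 : (repAut cs hp.isCartan w0⁻¹).symm a = rep cs hp.isCartan w0 a := by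
      rw [AddEquiv.symm_apply_eq, repAut_apply, hrep]
    have hroot : ∀ b, rep cs hp.isCartan w0⁻¹ b ∈ Sx cs hp.isCartan (ch hp) (y * t * y⁻¹) ↔
        b ∈ Sx cs hp.isCartan (ch hp) t := by
      intro b
      constructor
      · intro h3
        have h4 : IsRoot cs hp.isCartan b := by
          have h5 := h3.1.act w0
          rwa [hrep'] at h5
        exact (hSx b h4).1 h3
      · exact fun h3 => (hSx b h3.1).2 h3
    show repAut cs hp.isCartan w0⁻¹ (g ((repAut cs hp.isCartan w0⁻¹).symm a)) ∈ _ ↔ _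
    rw [h2, repAut_apply, hroot, d.stab, ← hroot, hrep]
  · intro a ha ha0
    have h1 : rep cs hp.isCartan w0 a ∈ Sx cs hp.isCartan (ch hp) t := by
      rw [← hSx _ (ha.1.act w0), hrep]
      exact ha
    have h2 : (repAut cs hp.isCartan w0⁻¹).symm a = rep cs hp.isCartan w0 a := by
      rw [AddEquiv.symm_apply_eq, repAut_apply, hrep]
    have h3 : g (rep cs hp.isCartan w0 a) ≤ 0 :=
      theta_neg (coordsTL hk r) Dt.ht d.pos Dt.hA h1 (hback a ha.1 ha0)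
    show 0 ≤ repAut cs hp.isCartan w0⁻¹ (g ((repAut cs hp.isCartan w0⁻¹).symm a))
    rw [h2, repAut_apply]
    exact hneg _ ((d.fr.root _).2 h1.1) h3
  · intro x
    have hS : y * x * y⁻¹ ∈ RGD.Sup (XX D l k) (SP cs hp.isCartan (ch hp) (y * t * y⁻¹)) ↔
        x ∈ RGD.Sup (XX D l k) (SN cs hp.isCartan (ch hp) t) := by
      rw [← XL_eq hp hk]
      constructor
      · intro hx
        have h1 := conj_SupL H hy.inv (S := SP cs hp.isCartan (ch hp) (y * t * y⁻¹))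
          (S' := SN cs hp.isCartan (ch hp) t) (fun a ha => ha.1.1) (fun a ha => by
            rw [inv_inv]
            refine ⟨?_, hback a ha.1.1 ha.2⟩
            rw [← hSx _ (ha.1.1.act w0), hrep]
            exact ha.1) hx
        have e1 : y⁻¹ * (y * x * y⁻¹) * y⁻¹⁻¹ = x := by group
        rwa [e1] at h1
      · intro hx
        exact conj_SupL H hy (S := SN cs hp.isCartan (ch hp) t)
          (S' := SP cs hp.isCartan (ch hp) (y * t * y⁻¹)) (fun a ha => ha.1.1) (fun a ha =>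
            ⟨(hSx a ha.1.1).2 ha.1, hneg a ha.1.1 ha.2⟩) hx
    constructor
    · rintro ⟨h1, h2⟩
      refine ⟨hS.2 h1, ?_⟩
      have h3 : τ x = x := h2
      show (MulAut.conj y * τ * (MulAut.conj y)⁻¹) (y * x * y⁻¹) = y * x * y⁻¹
      rw [hτ', h3]
    · rintro ⟨h1, h2⟩
      refine ⟨hS.1 h1, ?_⟩
      have h3 : (MulAut.conj y * τ * (MulAut.conj y)⁻¹) (y * x * y⁻¹) = y * x * y⁻¹ := h2
      rw [hτ'] at h3
      exact mul_left_cancel (mul_right_cancel h3)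

/-- **F2: `QK` is a Sylow subgroup.** -/
theorem DFr.sylQ [IsAlgClosed k] (d : DFr hp cs r e τ g t) (hk : LocFin k) [Finite ↥(fixC τ t)] :
    ∃ Q : Sylow r ↥(fixC τ t), (Q : Subgroup ↥(fixC τ t)) = (QK hp cs τ t).subgroupOf (fixC τ t) := by
  obtain ⟨y, g', d', hQ⟩ := d.opp hk
  set τ' := MulAut.conj y * τ * (MulAut.conj y)⁻¹ with hτ'def
  have hτ' : ∀ x, τ' (y * x * y⁻¹) = y * τ x * y⁻¹ := by
    intro x
    have e1 : (MulAut.conj y)⁻¹ (y * x * y⁻¹) = x := by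
      rw [← MulAut.conj_apply, MulAut.inv_apply_self]
    rw [hτ'def, MulAut.mul_apply, MulAut.mul_apply, e1, MulAut.conj_apply]
  have hmem : ∀ x, x ∈ fixC τ t → y * x * y⁻¹ ∈ fixC τ' (y * t * y⁻¹) := by
    intro x hx
    obtain ⟨h1, h2⟩ := mem_fixC.1 hx
    refine mem_fixC.2 ⟨by rw [hτ', h1], ?_⟩
    calc y * x * y⁻¹ * (y * t * y⁻¹) = y * (x * t) * y⁻¹ := by group
      _ = y * (t * x) * y⁻¹ := by rw [h2]
      _ = _ := by group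
  have hmem' : ∀ x, x ∈ fixC τ' (y * t * y⁻¹) → y⁻¹ * x * y ∈ fixC τ t := by
    intro x hx
    obtain ⟨h1, h2⟩ := mem_fixC.1 hx
    refine mem_fixC.2 ⟨?_, ?_⟩
    · have h3 := hτ' (y⁻¹ * x * y)
      have e1 : y * (y⁻¹ * x * y) * y⁻¹ = x := by group
      rw [e1, h1] at h3
      have h4 : τ (y⁻¹ * x * y) = y⁻¹ * (y * τ (y⁻¹ * x * y) * y⁻¹) * y := by group
      rw [h4, ← h3]
    · calc y⁻¹ * x * y * t = y⁻¹ * (x * (y * t * y⁻¹)) * y := by group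
        _ = y⁻¹ * (y * t * y⁻¹ * x) * y := by rw [h2]
        _ = t * (y⁻¹ * x * y) := by group
  let E : ↥(fixC τ t) →* ↥(fixC τ' (y * t * y⁻¹)) := MonoidHom.mk' (fun x => ⟨y * x * y⁻¹, hmem x x.2⟩) (by
    intro a b
    apply Subtype.ext
    show y * ((a : ↥(D.group k)) * b) * y⁻¹ = y * a * y⁻¹ * (y * b * y⁻¹)
    group)
  have hEi : Function.Injective E := by
    intro a b hab
    have h1 : y * (a : ↥(D.group k)) * y⁻¹ = y * b * y⁻¹ := congrArg Subtype.val hab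
    exact Subtype.ext (mul_left_cancel (mul_right_cancel h1))
  have hEs : Function.Surjective E := by
    rintro ⟨x, hx⟩
    refine ⟨⟨y⁻¹ * x * y, hmem' x hx⟩, Subtype.ext ?_⟩
    show y * (y⁻¹ * x * y) * y⁻¹ = x
    group
  have hfin : Finite ↥(fixC τ' (y * t * y⁻¹)) := Finite.of_surjective E hEs
  obtain ⟨P', hP'⟩ := d'.sylP hk
  refine ⟨P'.comapOfInjective E hEi (by rw [MonoidHom.range_eq_top.2 hEs]; exact le_top), ?_⟩
  rw [Sylow.coe_comapOfInjective, hP']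
  ext x
  rw [Subgroup.mem_comap, Subgroup.mem_subgroupOf, Subgroup.mem_subgroupOf, hQ]
  exact Iff.rfl

/-- `|PK| = |QK|` -/
theorem DFr.card_PK_QK [IsAlgClosed k] (d : DFr hp cs r e τ g t) (hk : LocFin k) [Finite ↥(fixC τ t)] :
    Nat.card ↥(QK hp cs τ t) = Nat.card ↥(PK hp cs τ t) := by
  obtain ⟨P, hP⟩ := d.sylP hk
  obtain ⟨Q, hQ⟩ := d.sylQ hk
  have h1 : Nat.card ↥(Q : Subgroup ↥(fixC τ t)) = Nat.card ↥(P : Subgroup ↥(fixC τ t)) := by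
    rw [Q.card_eq_multiplicity, P.card_eq_multiplicity]
  rw [hP, hQ] at h1
  rwa [Nat.card_congr (Subgroup.subgroupOfEquivOfLe (d.QK_le hk)).toEquiv,
    Nat.card_congr (Subgroup.subgroupOfEquivOfLe (d.PK_le hk)).toEquiv] at h1

/-- **F2: `O_r(C) = 1`.** -/
theorem DFr.pCore_eq_bot [IsAlgClosed k] (d : DFr hp cs r e τ g t) (hk : LocFin k) [Finite ↥(fixC τ t)] :
    pCore r ↥(fixC τ t) = ⊥ := by
  obtain ⟨P, hP⟩ := d.sylP hk
  obtain ⟨Q, hQ⟩ := d.sylQ hk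
  rw [eq_bot_iff]
  intro x hx
  have h1 := Cfsg.Agent.Lib.Cores.pCore_le_sylow P hx
  have h2 := Cfsg.Agent.Lib.Cores.pCore_le_sylow Q hx
  rw [hP, Subgroup.mem_subgroupOf] at h1
  rw [hQ, Subgroup.mem_subgroupOf] at h2
  have h3 : (x : ↥(D.group k)) ∈ PK hp cs τ t ⊓ QK hp cs τ t := ⟨h1, h2⟩
  rw [d.PK_inf_QK hk, Subgroup.mem_bot] at h3
  exact Subgroup.mem_bot.2 (Subtype.ext h3)

/-- the representatives in `C` normalise `TK` -/
theorem DFr.conj_TK (_d : DFr hp cs r e τ g t) (hk : LocFin k) {w : W} {y s : ↥(D.group k)}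
    (hy : Rp cs (nsysTT hp cs hk r) w y) (hyC : y ∈ fixC τ t) (hs : s ∈ TK τ) : y * s * y⁻¹ ∈ TK τ := by
  have h1 := (Subgroup.mem_normalizer_iff.1 hy.mem_normalizer s).1 hs.1
  have h2 : τ (y * s * y⁻¹) = y * s * y⁻¹ := by rw [map_mul, map_mul, map_inv, (mem_fixC.1 hyC).1, hs.2]
  exact ⟨h1, h2⟩

/-- `⟨PK, QK, TK⟩ ◁ C` -/
theorem DFr.KT_normal [IsAlgClosed k] (d : DFr hp cs r e τ g t) (hk : LocFin k) :
    ((PK hp cs τ t ⊔ QK hp cs τ t ⊔ TK τ).subgroupOf (fixC τ t)).Normal := by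
  set K := PK hp cs τ t ⊔ QK hp cs τ t with hKdef
  have hKC : K ≤ fixC τ t := sup_le (d.PK_le hk) (d.QK_le hk)
  have hKn : ∀ c ∈ fixC τ t, ∀ x ∈ K, c * x * c⁻¹ ∈ K := by
    intro c hc x hx
    exact (d.KK_normal hk).conj_mem ⟨x, hKC hx⟩ hx ⟨c, hc⟩
  refine ⟨fun x hx c => ?_⟩
  rw [Subgroup.mem_subgroupOf] at hx ⊢
  have key : K ⊔ TK τ ≤ (K ⊔ TK τ).comap (MulAut.conj (c : ↥(D.group k))).toMonoidHom := by
    refine sup_le (fun z hz => ?_) (fun z hz => ?_)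
    · have h1 : (c : ↥(D.group k)) * z * (c : ↥(D.group k))⁻¹ ∈ K ⊔ TK τ :=
        Subgroup.mem_sup_left (hKn c c.2 z hz)
      exact h1
    · obtain ⟨w, u, hu, y, hyC, hy, v, hv, -, e1⟩ := d.formC hk c.2
      have hu' : u ∈ K := Subgroup.mem_sup_left hu
      have hv' : v ∈ K := Subgroup.mem_sup_left hv
      have hzC : z ∈ fixC τ t := d.TK_le hz
      have h2 : (c : ↥(D.group k)) * z * (c : ↥(D.group k))⁻¹ ∈ K ⊔ TK τ := by
        have e2 : (c : ↥(D.group k)) * z * (c : ↥(D.group k))⁻¹ =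
            u * (y * (v * (z * v⁻¹ * z⁻¹)) * y⁻¹) * (y * z * y⁻¹) * u⁻¹ := by
          rw [e1]; group
        rw [e2]
        refine mul_mem (mul_mem (mul_mem (Subgroup.mem_sup_left hu') (Subgroup.mem_sup_left ?_))
          (Subgroup.mem_sup_right (d.conj_TK hk hy hyC hz))) (inv_mem (Subgroup.mem_sup_left hu'))
        exact hKn y hyC _ (mul_mem hv' (hKn z hzC _ (inv_mem hv')))
      exact h2
  exact key hx

theorem DFr.KT_le [IsAlgClosed k] (d : DFr hp cs r e τ g t) (hk : LocFin k) :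
    PK hp cs τ t ⊔ QK hp cs τ t ⊔ TK τ ≤ fixC τ t := sup_le (sup_le (d.PK_le hk) (d.QK_le hk)) d.TK_le

/-- **`O_r(K) = 1` for the normal subgroups `K` of `C`** -/
theorem DFr.pCore_of_normal [IsAlgClosed k] (d : DFr hp cs r e τ g t) (hk : LocFin k) [Finite ↥(fixC τ t)]
    {K : Subgroup ↥(D.group k)} (hK : K ≤ fixC τ t) (hn : (K.subgroupOf (fixC τ t)).Normal) :
    pCore r ↥K = ⊥ := by
  have h1 := Cfsg.Agent.Lib.Cores.map_subtype_pCore r hn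
  rw [d.pCore_eq_bot hk, inf_bot_eq] at h1
  have h2 := (Subgroup.map_eq_bot_iff_of_injective _ (Subgroup.subtype_injective _)).1 h1
  rw [← Cfsg.Agent.Lib.Cores.map_equiv_pCore (Subgroup.subgroupOfEquivOfLe hK) r, h2, Subgroup.map_bot]

/-- `O_r(⟨PK, QK, TK⟩) = 1` -/
theorem DFr.pCore_KT [IsAlgClosed k] (d : DFr hp cs r e τ g t) (hk : LocFin k) [Finite ↥(fixC τ t)] :
    pCore r ↥(PK hp cs τ t ⊔ QK hp cs τ t ⊔ TK τ) = ⊥ :=
  d.pCore_of_normal hk (d.KT_le hk) (d.KT_normal hk)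

/-- the same, in the abstract frame -/
theorem DFr.pCore_KK0 [IsAlgClosed k] (d : DFr hp cs r e τ g t) (hk : LocFin k) [Finite ↥(fixC τ t)] :
    pCore r ↥(PP0 cs hp.isCartan (Xj hp (k := k)) (ch hp) τ t ⊔ QQ0 cs hp.isCartan (Xj hp (k := k)) (ch hp) τ t ⊔
      (TL (Tj hp (k := k)) ⊓ fixedSubgroup τ)) = ⊥ := by
  rw [PP0_eq hk, QQ0_eq hk, TL_eq hp hk]
  exact d.pCore_KT hk

/-- **Trivial component group: `C = ⟨PK, QK, TK⟩`.** -/
theorem DFr.mem_KT_of_PP [IsAlgClosed k] [Finite W] (d : DFr hp cs r e τ g t) (hk : LocFin k) [Finite ↥(fixC τ t)]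
    (hPP : ∀ w ∈ PP cs hp.isCartan (ch hp) t, w = 1) {c : ↥(D.group k)} (hc : c ∈ fixC τ t) :
    c ∈ PK hp cs τ t ⊔ QK hp cs τ t ⊔ TK τ := by
  obtain ⟨κ, hκ, w, hw, y, hyC, hy, rfl⟩ := d.frattiniC hk hc
  rw [hPP w hw] at hy
  have h1 : y ∈ TK τ := ⟨hy.mem_of_one, (mem_fixC.1 hyC).1⟩
  exact mul_mem (Subgroup.mem_sup_left hκ) (Subgroup.mem_sup_right h1)

/-- `C = ⟨PK, QK, TK⟩`, as subgroups -/
theorem DFr.eq_KT_of_PP [IsAlgClosed k] [Finite W] (d : DFr hp cs r e τ g t) (hk : LocFin k) [Finite ↥(fixC τ t)]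
    (hPP : ∀ w ∈ PP cs hp.isCartan (ch hp) t, w = 1) : fixC τ t = PK hp cs τ t ⊔ QK hp cs τ t ⊔ TK τ :=
  le_antisymm (fun _ hc => d.mem_KT_of_PP hk hPP hc) (d.KT_le hk)

end

end

end Cfsg.Agent.H441.RG.Wk
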