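import Cfsg.Agent.H441.RG.CentK

/-!
# S3509, exceptional groups: Sylow subgroups of the fixed points of a frame automorphism in a centraliser (helper441)

The frame of `H441/RG/CentK.lean`, `t` of any order prime to `p`.

* `prime_dvd_PP` : the primes dividing the order of the component group `PP t` divide the order of `t`;
* `exists_sylow_P` : `PP0` is a Sylow `p`-subgroup of `C = fixC α t`.
-/

set_option autoImplicit false
set_option linter.unusedSectionVars false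

namespace Cfsg.Agent.H441.RG

open CoxeterSystem Cfsg.Agent.ChevalleyStructure.CoxeterGeom Cfsg.Agent.Tits.Roots Cfsg.Agent.Tits.Core
  Cfsg.Agent.Tits.RootComb Cfsg.Agent.Tits.Exchange Cfsg.Agent.Nodes.Reps Cfsg.Agent.Nodes.BNOf
  Cfsg.Agent.Nodes.StabComb Cfsg.Agent.Nodes.Bruhat Cfsg.Agent.Nodes.OppDec Cfsg.Agent.Nodes.LeviDec
  Cfsg.Agent.Nodes.NormalForm Cfsg.Agent.Nodes.SubComb Cfsg.Agent.KFacts.RgdField
  Cfsg.Agent.BpExc.TorCent Cfsg.Agent.BpExc.Tow Cfsg.Agent.BpExc.Fr Cfsg.Agent.BpExc.Pair Cfsg.Agent.H28.RG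

variable {I W Y : Type*} [Fintype I] [DecidableEq I] [Group W] [Finite W] [Group Y] {M : CoxeterMatrix I}
  {cs : CoxeterSystem M W} {A : I → I → ℤ} {h : IsCartan M A} {p : ℕ}
  {J : Type*} [Preorder J] {T : J → Subgroup Y} {n : I → Y} {X : J → (I → ℤ) → Subgroup Y}
  {F : Type*} [Field F] {xx : (I → ℤ) → F → Y} {χ : (I → ℤ) → Y → F}

/-- **The primes dividing the order of the component group.** -/
theorem prime_dvd_PP {T : Subgroup Y} (hA : ChAdd cs h T χ) {t : Y} (htT : t ∈ T) {d : ℕ}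
    (hd : ∀ a, IsRoot cs h a → χ a t ^ d = 1) {q : ℕ} (hq : q.Prime) (hqd : q ∣ Nat.card ↥(PP cs h χ t)) : q ∣ d := by
  classical
  obtain ⟨φ, hφ0, hadd, hφ⟩ := hA t htT
  have hqf : Fact q.Prime := ⟨hq⟩
  obtain ⟨⟨w, hwP⟩, hw⟩ := exists_prime_orderOf_dvd_card' q hqd
  have hwo : orderOf w = q := by rw [← hw]; exact (Subgroup.orderOf_mk w hwP).symm
  have hw1 : w ≠ 1 := by
    rintro rfl
    rw [orderOf_one] at hwo
    exact hq.one_lt.ne hwo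
  obtain ⟨a, ha, hsum⟩ := Cfsg.Agent.BpExc.Fix.exists_root_sum_eq_zero (cs := cs) (h := h) hw1 hq.pos
    (by rw [← hwo]; exact pow_orderOf_eq_one w)
  have hfix : ∀ i : ℕ, φ (rep cs h (w ^ i) a) = φ a := fun i => by
    have h1 := (mem_PP.1 ((PP cs h χ t).pow_mem hwP i)).1 a ha
    rw [hφ _ (ha.act _), hφ a ha] at h1
    exact h1
  have h1 : ∀ m : ℕ, φ (∑ i ∈ Finset.range m, rep cs h (w ^ i) a) = φ a ^ m := by
    intro m
    induction m with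
    | zero => rw [Finset.sum_range_zero, hφ0, pow_zero]
    | succ m ih => rw [Finset.sum_range_succ, hadd, ih, hfix, pow_succ]
  have h2 : φ a ^ q = 1 := by rw [← h1 q, hsum, hφ0]
  by_contra hqp
  have hcop : Nat.Coprime q d := (Nat.Prime.coprime_iff_not_dvd hq).2 hqp
  have h3 : φ a = 1 := by
    have h4 : orderOf (φ a) ∣ d := orderOf_dvd_of_pow_eq_one (by rw [← hφ a ha]; exact hd a ha)
    have h5 : orderOf (φ a) ∣ q := orderOf_dvd_of_pow_eq_one h2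
    have h6 := Nat.dvd_gcd h5 h4
    rw [hcop, Nat.dvd_one] at h6
    exact orderOf_eq_one_iff.1 h6
  -- WLOG `a` is positive
  have key : ∀ b, IsRoot cs h b → φ b = 1 → 0 ≤ b → ∑ i ∈ Finset.range q, rep cs h (w ^ i) b ≠ 0 := by
    intro b hb hb1 hb0 hs
    have hpos : ∀ i : ℕ, 0 < ht (rep cs h (w ^ i) b) := fun i =>
      RGD.ht_pos (hb.act _) ((mem_PP.1 ((PP cs h χ t).pow_mem hwP i)).2 b ⟨hb, by rw [hφ b hb]; exact hb1⟩ hb0)
    have h6 : 0 < ∑ i ∈ Finset.range q, ht (rep cs h (w ^ i) b) :=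
      Finset.sum_pos (fun i _ => hpos i) ⟨0, Finset.mem_range.2 hq.pos⟩
    have h7 : ∑ i ∈ Finset.range q, ht (rep cs h (w ^ i) b) = ht (∑ i ∈ Finset.range q, rep cs h (w ^ i) b) :=
      (map_sum Nodes.Slope.htHom _ _).symm
    rw [h7, hs] at h6
    exact absurd h6 (by unfold ht; simp)
  rcases ha.pos_or_neg with h4 | h4
  · exact key a ha h3 h4 hsum
  · refine key (-a) ha.neg ?_ (neg_nonneg.2 h4) ?_
    · have h5 := hadd a (-a)
      rw [add_neg_cancel, hφ0, h3, one_mul] at h5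
      exact h5.symm
    · have h5 : ∀ i : ℕ, rep cs h (w ^ i) (-a) = - rep cs h (w ^ i) a := fun i => map_neg _ _
      simp only [h5, Finset.sum_neg_distrib, hsum, neg_zero]

variable (H : Tow cs h p T n X) (C : Coords cs h (TL T) n (XL X) xx χ)
  {α : MulAut Y} {θ : (I → ℤ) ≃+ (I → ℤ)} (Fα : Fr cs h (TL T) (XL X) α θ)

/-- the existence of fixed elements -/
def HNe (cs : CoxeterSystem M W) (h : IsCartan M A) (X : J → (I → ℤ) → Subgroup Y) (χ : (I → ℤ) → Y → F)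
    (α : MulAut Y) (θ : (I → ℤ) ≃+ (I → ℤ)) (t : Y) : Prop :=
  ∀ Ψ : Set (I → ℤ), Ψ.Nonempty → Ψ ⊆ SP cs h χ t → (∀ a ∈ Ψ, θ a ∈ Ψ) →
      (∀ a ∈ Ψ, ∀ b ∈ Ψ, ∀ z, IsRoot cs h z → (∃ i j : ℕ, 0 < i ∧ 0 < j ∧ z = i • a + j • b) → z ∈ Ψ) →
      ∃ u ∈ RGD.Sup (XL X) Ψ, u ≠ 1 ∧ α u = u

/-- the group of the representatives -/
def NGL (H : Tow cs h p T n X) : Subgroup Y where
  carrier := {k | ∃ w, Rp cs H.nsys w k}
  one_mem' := ⟨1, rp_one⟩
  mul_mem' := by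
    rintro a b ⟨w, hw⟩ ⟨w', hw'⟩
    exact ⟨w * w', hw.mul hw'⟩
  inv_mem' := by
    rintro a ⟨w, hw⟩
    exact ⟨w⁻¹, hw.inv⟩

/-- the group of the representatives over the component group -/
def NPL (H : Tow cs h p T n X) (χ : (I → ℤ) → Y → F) (t : Y) : Subgroup Y where
  carrier := {k | ∃ w ∈ PP cs h χ t, Rp cs H.nsys w k}
  one_mem' := ⟨1, one_mem _, rp_one⟩
  mul_mem' := by
    rintro a b ⟨w, hw, ha⟩ ⟨w', hw', hb⟩
    exact ⟨w * w', mul_mem hw hw', ha.mul hb⟩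
  inv_mem' := by
    rintro a ⟨w, hw, ha⟩
    exact ⟨w⁻¹, inv_mem hw, ha.inv⟩

include H

theorem rpL_unique {w w' : W} {k : Y} (hk : Rp cs H.nsys w k) (hk' : Rp cs H.nsys w' k) : w = w' := by
  have h1 := H.normal_form_unique (u := 1) (u' := 1) (v := 1) (v' := 1) (one_mem _) (one_mem _) hk hk'
    (one_mem _) (one_mem _) rfl
  exact h1.1

theorem isPGroup_Up {t : Y} : IsPGroup p ↥(Up cs h X χ t) := by
  rintro ⟨u, hu⟩
  obtain ⟨j, hj⟩ := H.mem_Sup.1 hu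
  obtain ⟨m, hm⟩ := (H.rgd j).isPGroup_of_pos (S := SP cs h χ t) (fun a ha => ⟨ha.1.1, ha.2⟩) ⟨u, hj⟩
  refine ⟨m, Subtype.ext ?_⟩
  exact congrArg (fun z : ↥(RGD.Sup (X j) (SP cs h χ t)) => (z : Y)) hm

theorem norm_Up {t : Y} {w : W} {k : Y} (hk : Rp cs H.nsys w k) (hw : w ∈ PP cs h χ t) {u : Y}
    (hu : u ∈ Up cs h X χ t) : k * u * k⁻¹ ∈ Up cs h X χ t :=
  conj_SupL H hk (S := SP cs h χ t) (S' := SP cs h χ t) (fun x hx => hx.1.1)
    (fun x hx => ⟨⟨hx.1.1.act w, by rw [(mem_PP.1 hw).1 x hx.1.1, hx.1.2]⟩, (mem_PP.1 hw).2 x hx.1 hx.2⟩) hu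

variable {t : Y} (Dt : CDat cs h T X χ α θ t)

include C Fα Dt

/-- **The Bruhat form.** -/
theorem formF (hne : HNe cs h X χ α θ t) : Cfsg.Agent.BpExc.NSol.Form (fixC α t) (Up cs h X χ t) (Un cs h X χ t)
    (NGL H) (NPL H χ t) where
  form g hg := by
    obtain ⟨h3, h4⟩ := mem_fixC.1 hg
    obtain ⟨w, u, hu, hαu, k, hk, hkt, hαk, v, hv, hαv, hkv, e1⟩ :=
      form_fix H C Fα Dt.hG Dt.hsep Dt.hA Dt.ht Dt.hα Dt.hpos h4 h3
    exact ⟨u, ⟨hu, mem_fixC.2 ⟨hαu, comm_Up C Dt.ht hu⟩⟩, k, ⟨⟨w, hk⟩, mem_fixC.2 ⟨hαk, hkt⟩⟩, v,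
      ⟨hv, mem_fixC.2 ⟨hαv, comm_Up C Dt.ht hv⟩⟩, hkv, e1⟩
  inf := by
    rw [eq_bot_iff]
    rintro x ⟨h1, h2⟩
    exact Subgroup.mem_bot.2 (eq_one_of_pos_neg H (Up_le h1) (Un_le h2))
  move := by
    rintro k ⟨⟨w, hk⟩, hkC⟩ hn
    obtain ⟨hαk, hkt⟩ := mem_fixC.1 hkC
    have hw : ¬ ∀ x ∈ PP0 cs h X χ α t, k * x * k⁻¹ ∈ PP0 cs h X χ α t := fun hx =>
      hn ⟨w, mem_PP_of_normalizer H C Fα Dt hne hk hkt hαk hx, hk⟩
    push Not at hw
    obtain ⟨x, hx, hx'⟩ := hw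
    obtain ⟨b, hb, c, hc, e, h1, h2⟩ := dec_PP0 H C Fα Dt.hA Dt.ht Dt.hα Dt.hpos hk hkt hαk hx
    refine ⟨c, ⟨hc.1, PP0_le_fixC H C Fα Dt hc⟩, fun hc1 => hx' ?_, h2.1⟩
    rw [e, hc1, mul_one]
    exact h1
  norm := by
    rintro k ⟨⟨w, hw, hk⟩, -⟩ u hu
    exact norm_Up H hk hw hu.1

/-- **The order of the complement.** -/
theorem coprime_NPL [Fact p.Prime] [Finite ↥(fixC α t)] (hPP : (Nat.card ↥(PP cs h χ t)).Coprime p) :
    (Nat.card ↥(NPL H χ t ⊓ fixC α t)).Coprime p := by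
  have hpp : p.Prime := Fact.out
  have hfin : Finite ↥(NPL H χ t ⊓ fixC α t) :=
    Finite.of_injective (Subgroup.inclusion inf_le_right) (Subgroup.inclusion_injective _)
  rw [Nat.coprime_comm, Nat.Prime.coprime_iff_not_dvd hpp]
  intro hdvd
  obtain ⟨x, hx⟩ := exists_prime_orderOf_dvd_card' p hdvd
  obtain ⟨⟨w, hw, hk⟩, hxC⟩ := x.2
  have hxp : (x : Y) ^ p = 1 := by
    have h1 := pow_orderOf_eq_one x
    rw [hx] at h1
    exact congrArg Subtype.val h1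
  have h2 : ∀ m : ℕ, Rp cs H.nsys (w ^ m) ((x : Y) ^ m) := by
    intro m
    induction m with
    | zero => rw [pow_zero, pow_zero]; exact rp_one
    | succ m ih => rw [pow_succ, pow_succ]; exact ih.mul hk
  have h3 : w ^ p = 1 := by
    have h4 := h2 p
    rw [hxp] at h4
    exact rpL_unique H h4 rp_one
  have h5 : w = 1 := by
    have h6 : (⟨w, hw⟩ : ↥(PP cs h χ t)) ^ p = 1 := Subtype.ext h3
    have h7 := orderOf_dvd_of_pow_eq_one h6
    have h8 := orderOf_dvd_natCard (⟨w, hw⟩ : ↥(PP cs h χ t))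
    have h9 := Nat.eq_one_of_dvd_coprimes hPP h8 h7
    rw [orderOf_eq_one_iff] at h9
    exact congrArg Subtype.val h9
  rw [h5] at hk
  obtain ⟨j, hj⟩ := H.mem_TL.1 hk.mem_of_one
  have h6 : orderOf (x : Y) ∣ Nat.card ↥(T j) := by
    have := orderOf_dvd_natCard (⟨(x : Y), hj⟩ : ↥(T j))
    rwa [Subgroup.orderOf_mk] at this
  have h7 : orderOf (x : Y) = 1 :=
    Nat.eq_one_of_dvd_coprimes (H.rgd j).tcop h6 (orderOf_dvd_of_pow_eq_one hxp)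
  have h8 : orderOf x = 1 := by rw [← h7]; exact (Subgroup.orderOf_coe x).symm
  rw [hx] at h8
  exact hpp.one_lt.ne' h8

/-- **`P` is a Sylow subgroup.** -/
theorem exists_sylow_P [Fact p.Prime] [Finite ↥(fixC α t)] (hne : HNe cs h X χ α θ t)
    (hPP : (Nat.card ↥(PP cs h χ t)).Coprime p) :
    ∃ P : Sylow p ↥(fixC α t), (P : Subgroup ↥(fixC α t)) = (PP0 cs h X χ α t).subgroupOf (fixC α t) := by
  obtain ⟨P, hP⟩ := (formF H C Fα Dt hne).exists_sylow ((isPGroup_Up H (χ := χ) (t := t)).comap_subtype)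
    (coprime_NPL H C Fα Dt hPP)
  refine ⟨P, ?_⟩
  rw [hP]
  ext x
  rw [Subgroup.mem_subgroupOf, Subgroup.mem_subgroupOf]
  exact ⟨fun hx => ⟨hx, (mem_fixC.1 x.2).1⟩, fun hx => hx.1⟩

end Cfsg.Agent.H441.RG
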