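import Cfsg.Agent.H338.RG.K1Norm
import Cfsg.Agent.H461.E2.Cent
import Cfsg.Agent.H696.GmnToral

/-!
# S3509, `E₆`, `²E₆`: the torus elements commuting with `PK`, `Sx t` of type `3A₂` (helper441, box D45 of helper338)

`mem_zpowers_of` : an element `g` of the torus fixed by `α` and commuting with the elements of `PK` is a power of `t`.
-/

set_option autoImplicit false
set_option linter.unusedSectionVars false
set_option linter.unusedVariables false

namespace Cfsg.Agent.H441.RG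

open CoxeterSystem Cfsg Cfsg.Lie Cfsg.Lie.ChevalleyDatum
open Cfsg.Agent.ChevalleyStructure Cfsg.Agent.ChevalleyStructure.Elts Cfsg.Agent.ChevalleyStructure.CoxeterGeom
  Cfsg.Agent.ChevalleyStructure.CoxeterGeomTypes Cfsg.Agent.ChevalleyStructure.NPerm
open Cfsg.Agent.Tits.Roots Cfsg.Agent.Tits.Core Cfsg.Agent.Nodes Cfsg.Agent.Nodes.Reps Cfsg.Agent.Nodes.BNOf
  Cfsg.Agent.Nodes.RGDChev Cfsg.Agent.Nodes.Bruhat Cfsg.Agent.Nodes.NormalForm Cfsg.Agent.Nodes.Coroot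
open Cfsg.Agent.KFacts.RgdField Cfsg.Agent.KFacts.RgdChevCoord Cfsg.Agent.KFacts.RgdSL
open Cfsg.Agent.BpExc Cfsg.Agent.BpExc.TorCent Cfsg.Agent.BpExc.TorChev Cfsg.Agent.BpExc.Tow
  Cfsg.Agent.BpExc.TowChev Cfsg.Agent.BpExc.Fr Cfsg.Agent.BpExc.Pair Cfsg.Agent.BpExc.LangFr Cfsg.Agent.GpExc.Field
  Cfsg.Agent.BpExc.NInst Cfsg.Agent.BpExc.NChev
open Cfsg.Agent.H469.Exc Cfsg.Agent.H316.U6 Cfsg.Agent.H28.RG Cfsg.Agent.H169.RG
open Cfsg.Agent.H338.RG (Tri mem_Up2)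

universe u v

/-- cube roots of one -/
theorem exists_pow_of_cube {F : Type*} [Field F] {x ω : F} (hx : x ^ 3 = 1) (hω : ω ^ 3 = 1) (h1 : ω ≠ 1) :
    ∃ j : ℕ, x = ω ^ j := by
  have : Fact (Nat.Prime 3) := ⟨by norm_num⟩
  have h2 : orderOf ω = 3 := orderOf_eq_prime hω h1
  have h3 : IsPrimitiveRoot ω 3 := by
    have := IsPrimitiveRoot.orderOf ω
    rwa [h2] at this
  obtain ⟨i, -, hi⟩ := h3.eq_pow_of_pow_eq_one hx
  exact ⟨i, hi.symm⟩

/-- a multiplicative function on the lattice is trivial on the subgroup generated by elements with value one -/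
theorem one_of_closure {L F : Type*} [AddCommGroup L] [Field F] {φ : L → F} (h0 : φ 0 = 1)
    (hadd : ∀ x y, φ (x + y) = φ x * φ y) {S : Set L} (hS : ∀ a ∈ S, φ a = 1) {x : L}
    (hx : x ∈ AddSubgroup.closure S) : φ x = 1 := by
  induction hx using AddSubgroup.closure_induction with
  | mem a ha => exact hS a ha
  | zero => exact h0
  | add a b _ _ ha hb => rw [hadd, ha, hb, one_mul]
  | neg a _ ha =>
    have h1 := hadd a (-a)
    rw [add_neg_cancel, h0, ha, one_mul] at h1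
    exact h1.symm

section Conc

variable {D : ChevalleyDatum} {l : ℕ} {M : CoxeterMatrix (Fin l)} {hp : IsType D l M} {r : ℕ} [hr : Fact r.Prime]
  {e : ℕ} {α : MulAut ↥(D.group (KK r))} {θ : (Fin l → ℤ) ≃+ (Fin l → ℤ)} {t : ↥(D.group (KK r))}
  (Δ : Wk.DFr hp M.toCoxeterSystem r e α θ t)
  {b c d u v : Fin l → ℤ} (hs : SL M.toCoxeterSystem hp.isCartan)
  (hT : Tri M.toCoxeterSystem hp.isCartan (Sx M.toCoxeterSystem hp.isCartan (ch hp) t) θ b c d u v)
  [Finite M.Group]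

include Δ

/-- the positive roots of `Sx t` are trivial on `g` -/
theorem SP_sub_Sx {g : ↥(D.group (KK r))} (hg : g ∈ TT D (KK r)) (hα : α g = g)
    (hP : ∀ x ∈ PK hp M.toCoxeterSystem α t, g * x = x * g) :
    SP M.toCoxeterSystem hp.isCartan (ch hp) t ⊆ Sx M.toCoxeterSystem hp.isCartan (ch hp) g := by
  obtain ⟨Ψ, hΨ⟩ : ∃ Ψ : Set (Fin l → ℤ), Ψ = {a | a ∈ SP M.toCoxeterSystem hp.isCartan (ch hp) t ∧
    a ∈ Sx M.toCoxeterSystem hp.isCartan (ch hp) g} := ⟨_, rfl⟩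
  have hsub : Ψ ⊆ SP M.toCoxeterSystem hp.isCartan (ch hp) t := by rw [hΨ]; exact fun a ha => ha.1
  have hst : ∀ a, θ a ∈ Sx M.toCoxeterSystem hp.isCartan (ch hp) g ↔
      a ∈ Sx M.toCoxeterSystem hp.isCartan (ch hp) g := fun a =>
    (Δ.frTL (locFin r)).mem_Sx coordK (t := g) (by rw [TL_eq hp (locFin r)]; exact hg) hα a
  have hθ1 : ∀ a ∈ SP M.toCoxeterSystem hp.isCartan (ch hp) t, θ a ∈ SP M.toCoxeterSystem hp.isCartan (ch hp) t :=
    fun a ha => ⟨(Δ.stab a).2 ha.1, Δ.pos a ha.1 ha.2⟩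
  have hP1 : SP M.toCoxeterSystem hp.isCartan (ch hp) t ⊆ RGD.Pos M.toCoxeterSystem hp.isCartan :=
    fun a ha => ⟨ha.1.1, ha.2⟩
  have hz1 : H461.E2.Sup.ZCl M.toCoxeterSystem hp.isCartan (SP M.toCoxeterSystem hp.isCartan (ch hp) t) :=
    H461.E2.Cent.zcl_Sx hp M.toCoxeterSystem (r := r) (locFin r) Δ.mem
  have hz2 : H461.E2.Sup.ZCl M.toCoxeterSystem hp.isCartan (SP M.toCoxeterSystem hp.isCartan (ch hp) g) :=
    H461.E2.Cent.zcl_Sx hp M.toCoxeterSystem (r := r) (locFin r) hg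
  have hz3 : H461.E2.Sup.ZCl M.toCoxeterSystem hp.isCartan Ψ := by
    rw [hΨ]
    rintro x ⟨hx, hx'⟩ y ⟨hy, hy'⟩ z hz hzz
    exact ⟨hz1 x hx y hy z hz hzz, (hz2 x ⟨hx', hx.2⟩ y ⟨hy', hy.2⟩ z hz hzz).1⟩
  have hθ2 : ∀ a ∈ Ψ, θ a ∈ Ψ := by
    rw [hΨ]
    exact fun a ha => ⟨hθ1 a ha.1, (hst a).2 ha.2⟩
  have c1 := H461.E2.Fix.card_fix (hp := hp) (locFin r) r Δ.he Δ.frob Δ.fr hP1 hz1 hθ1
  have c2 := H461.E2.Fix.card_fix (hp := hp) (locFin r) r Δ.he Δ.frob Δ.fr (hsub.trans hP1) hz3 hθ2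
  have hle : RGD.Sup (XX D l (KK r)) (SP M.toCoxeterSystem hp.isCartan (ch hp) t) ⊓ fixedSubgroup α ≤
      RGD.Sup (XX D l (KK r)) Ψ ⊓ fixedSubgroup α := by
    rintro x ⟨hx, hxα⟩
    refine ⟨?_, hxα⟩
    rw [hΨ]
    have h3 : x * t = t * x := (mem_fixC.1 (Δ.PK_le (locFin r) ⟨hx, hxα⟩)).2
    exact mem_Up2 (hp := hp) Δ.mem hg (RGD.Sup_mono hP1 hx) h3 (hP x ⟨hx, hxα⟩).symm
  have hfin1 : (SP M.toCoxeterSystem hp.isCartan (ch hp) t).Finite :=
    (RGD.finite_roots (cs := M.toCoxeterSystem) (h := hp.isCartan)).subset fun a ha => ha.1.1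
  have hq : 1 < r ^ e := Nat.one_lt_pow Δ.he.ne' hr.out.one_lt
  have hfin2 : Finite ↥(RGD.Sup (XX D l (KK r)) Ψ ⊓ fixedSubgroup α : Subgroup ↥(D.group (KK r))) := by
    refine Nat.finite_of_card_ne_zero ?_
    rw [c2]
    exact (pow_pos (by omega) _).ne'
  have h5 := Subgroup.card_le_of_le hle
  rw [c1, c2] at h5
  have h6 := (Nat.pow_le_pow_iff_right hq).1 h5
  have h7 := Set.eq_of_subset_of_ncard_le hsub h6 hfin1
  rw [← h7, hΨ]
  exact fun a ha => ha.2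

include hs hT

/-- **Box D45.** -/
theorem mem_zpowers_of (hZ : Subgroup.center ↥(D.group (KK r)) = ⊥) (ht3 : t ^ 3 = 1) {g : ↥(D.group (KK r))}
    (hg : g ∈ TT D (KK r)) (hα : α g = g) (hP : ∀ x ∈ PK hp M.toCoxeterSystem α t, g * x = x * g) :
    g ∈ Subgroup.zpowers t := by
  have h1 := SP_sub_Sx Δ hg hα hP
  have hA := chAddL (k := KK r) hp M.toCoxeterSystem (locFin r) r
  obtain ⟨φt, t0, tadd, tφ⟩ := hA t Δ.mem
  obtain ⟨φg, g0, gadd, gφ⟩ := hA g hg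
  have hS : ∀ a ∈ Sx M.toCoxeterSystem hp.isCartan (ch hp) t, a ∈ Sx M.toCoxeterSystem hp.isCartan (ch hp) g := by
    intro a ha
    rcases ha.1.pos_or_neg with h2 | h2
    · exact h1 ⟨ha, h2⟩
    · have h3 := h1 ⟨hT.neg a ha, neg_nonneg.2 h2⟩
      refine ⟨ha.1, ?_⟩
      have h4 := h3.2
      rw [gφ _ h3.1] at h4
      have h5 := gadd a (-a)
      rw [add_neg_cancel, g0, h4, mul_one] at h5
      rw [gφ a ha.1, ← h5]
  have ht1 : ∀ a ∈ Sx M.toCoxeterSystem hp.isCartan (ch hp) t, φt a = 1 := fun a ha => by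
    rw [← tφ a ha.1]; exact ha.2
  have hg1 : ∀ a ∈ Sx M.toCoxeterSystem hp.isCartan (ch hp) t, φg a = 1 := fun a ha => by
    rw [← gφ a ha.1]; exact (hS a ha).2
  have key : ∀ {φ : (Fin l → ℤ) → KK r}, φ 0 = 1 → (∀ x y, φ (x + y) = φ x * φ y) →
      (∀ a ∈ Sx M.toCoxeterSystem hp.isCartan (ch hp) t, φ a = 1) → φ u ^ 3 = 1 := by
    intro φ h0 hadd hφ
    have h2 := one_of_closure h0 hadd hφ hT.three
    have h3 : (3 : ℤ) • u = u + u + u := by module
    rw [h3, hadd, hadd] at h2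
    rw [← h2]
    ring
  have hω := key t0 tadd ht1
  have hx := key g0 gadd hg1
  have hω1 : φt u ≠ 1 := fun h2 => hT.uS ⟨hT.uR, by rw [tφ u hT.uR, h2]⟩
  obtain ⟨j, hj⟩ := exists_pow_of_cube hx hω hω1
  have hne : ∀ {φ : (Fin l → ℤ) → KK r}, φ 0 = 1 → (∀ x y, φ (x + y) = φ x * φ y) → ∀ a, φ a * φ (-a) = 1 := by
    intro φ h0 hadd a
    rw [← hadd, add_neg_cancel, h0]
  let N : AddSubgroup (Fin l → ℤ) :=
    { carrier := {x | φg x = φt x ^ j}
      zero_mem' := by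
        change φg 0 = φt 0 ^ j
        rw [g0, t0, one_pow]
      add_mem' := by
        intro x y hx hy
        change φg (x + y) = φt (x + y) ^ j
        rw [gadd, tadd, mul_pow, ← show φg x = φt x ^ j from hx, ← show φg y = φt y ^ j from hy]
      neg_mem' := by
        intro x hx
        change φg (-x) = φt (-x) ^ j
        have h2 := hne g0 gadd x
        have h3 := hne t0 tadd x
        have h4 : φg x = φt x ^ j := hx
        have h5 : φt x ^ j * φt (-x) ^ j = 1 := by rw [← mul_pow, h3, one_pow]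
        rw [h4] at h2
        have h6 : φt x ^ j ≠ 0 := fun h7 => by rw [h7, zero_mul] at h2; exact zero_ne_one h2
        exact mul_left_cancel₀ h6 (h2.trans h5.symm) }
  have hN : N = ⊤ := hT.gen N (fun a ha => by
    change φg a = φt a ^ j
    rw [hg1 a ha, ht1 a ha, one_pow]) hj
  have hall : ∀ a, φg a = φt a ^ j := fun a => by
    have h2 : a ∈ N := by rw [hN]; exact AddSubgroup.mem_top a
    exact h2
  have C := coordsL (k := KK r) hp M.toCoxeterSystem (locFin r) r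
  have hpow : ∀ a, IsRoot M.toCoxeterSystem hp.isCartan a → ∀ m : ℕ, ch hp a (t ^ m) = ch hp a t ^ m := by
    intro a ha m
    have h0 : ch hp a (1 : ↥(D.group (KK r))) = 1 := by
      have h1 := (C.coord a ha).chi_mul (one_mem (TT D (KK r))) (one_mem _)
      rw [mul_one] at h1
      exact (mul_eq_left₀ ((C.coord a ha).chi_ne_zero (one_mem _))).1 h1.symm
    induction m with
    | zero => rw [pow_zero, pow_zero, h0]
    | succ m ih => rw [pow_succ, pow_succ, (C.coord a ha).chi_mul (pow_mem Δ.mem m) Δ.mem, ih]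
  have h8 : g = t ^ j := by
    refine H696.GmnToral.ext_TT hp M.toCoxeterSystem (locFin r) r hZ hg (pow_mem Δ.mem j) fun a ha => ?_
    rw [hpow a ha, gφ a ha, tφ a ha, hall]
  rw [h8]
  exact Subgroup.npow_mem_zpowers t j

end Conc

end Cfsg.Agent.H441.RG
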